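import Mathlib
import Cfsg.Prelude.Def_Characters
import Cfsg.Prelude.Def_Local
import Cfsg.Prelude.Def_CharExt
import Cfsg.Agent.H82.Irr
import Cfsg.Agent.H82.DetChar
import Cfsg.Agent.Lib.ItoConv
import Cfsg.Agent.H32.BrolGar
import Cfsg.Agent.H32.DegP
import Cfsg.Agent.H32.LinAb
import Cfsg.Agent.H16.FTBChar
import Cfsg.Agent.H73.PSolv
import Cfsg.Agent.H80.PSolvable
import Cfsg.Agent.H80.GroupBasic
import Cfsg.Agent.H92.PPrimeKer

/-!
# Derived length of a Sylow `p`-subgroup and the number of characters of degree divisible by `p`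
(helper32)

For a `p`-solvable group `G` with `n` irreducible characters of degree divisible by `p`, a Sylow
`p`-subgroup has derived length at most `n + 1` (`dl_main`).
-/

set_option autoImplicit false
set_option linter.style.haveILetI false

namespace Cfsg.Agent.H32

open Cfsg Cfsg.Agent.H4 Cfsg.Agent.H82 Cfsg.Agent.Clifford
open scoped ComplexConjugate commutatorElement

universe u

/-- The number of irreducible characters of degree divisible by `p`. -/
noncomputable def npd (p : ℕ) (G : Type u) [Group G] : ℕ :=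
  Nat.card {χ : IrrCharacter G // p ∣ charDegree χ.1}

theorem dl_of_injective {H K : Type*} [Group H] [Group K] (f : H →* K)
    (hf : Function.Injective f) (k : ℕ) (h : derivedSeries K k = ⊥) : derivedSeries H k = ⊥ := by
  have h1 := map_derivedSeries_le_derivedSeries f k
  rw [h] at h1
  rw [eq_bot_iff]
  intro x hx
  have h2 : f x ∈ (⊥ : Subgroup K) := h1 (Subgroup.mem_map_of_mem f hx)
  rw [Subgroup.mem_bot] at h2 ⊢
  exact hf (by rw [h2, map_one])

theorem dl_succ_of_ker {H K : Type*} [Group H] [Group K] (f : H →* K) (k : ℕ)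
    (h : derivedSeries H k ≤ f.ker) (hab : ∀ a ∈ f.ker, ∀ b ∈ f.ker, a * b = b * a) :
    derivedSeries H (k + 1) = ⊥ := by
  rw [derivedSeries_succ, eq_bot_iff, Subgroup.commutator_le]
  intro a ha b hb
  rw [Subgroup.mem_bot, commutatorElement_eq_one_iff_mul_comm]
  exact hab a (h ha) b (h hb)

theorem dl_succ_of_map {H K : Type*} [Group H] [Group K] (f : H →* K) (k : ℕ)
    (h : derivedSeries K k = ⊥) (hab : ∀ a ∈ f.ker, ∀ b ∈ f.ker, a * b = b * a) :
    derivedSeries H (k + 1) = ⊥ := by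
  apply dl_succ_of_ker f k _ hab
  intro x hx
  have h1 := map_derivedSeries_le_derivedSeries f k (Subgroup.mem_map_of_mem f hx)
  rw [h, Subgroup.mem_bot] at h1
  exact h1

theorem dl_mono {H : Type*} [Group H] {k m : ℕ} (hkm : k ≤ m) (h : derivedSeries H k = ⊥) :
    derivedSeries H m = ⊥ :=
  eq_bot_iff.mpr (h ▸ derivedSeries_antitone H hkm)

/-- The image of a Sylow subgroup in a quotient, with the induced homomorphism. -/
theorem sylow_quot {G : Type u} [Group G] [Finite G] {p : ℕ} [Fact p.Prime] (P : Sylow p G)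
    (N : Subgroup G) [N.Normal] :
    ∃ (Q : Sylow p (G ⧸ N)) (f : ↥(P : Subgroup G) →* ↥(Q : Subgroup (G ⧸ N))),
      ∀ x : ↥(P : Subgroup G), ((f x : ↥(Q : Subgroup (G ⧸ N))) : G ⧸ N) =
        QuotientGroup.mk (x : G) :=
  ⟨P.mapSurjective (QuotientGroup.mk'_surjective N),
    (QuotientGroup.mk' N).subgroupMap (P : Subgroup G), fun _ => rfl⟩

theorem npd_quot_le {G : Type u} [Group G] [Finite G] (p : ℕ) (N : Subgroup G) [N.Normal] :
    npd p (G ⧸ N) ≤ npd p G := by
  classical
  haveI := Fintype.ofFinite G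
  letI := fintypeIrr G
  let F : {χ : IrrCharacter (G ⧸ N) // p ∣ charDegree χ.1} →
      {χ : IrrCharacter G // p ∣ charDegree χ.1} :=
    fun χ => ⟨inflate N χ.1, by rw [charDegree_inflate]; exact χ.2⟩
  have hF : Function.Injective F := fun a b hab =>
    Subtype.ext (inflate_injective N (congrArg Subtype.val hab))
  exact Nat.card_le_card_of_injective F hF

theorem npd_quot_lt {G : Type u} [Group G] [Finite G] (p : ℕ) (N : Subgroup G) [N.Normal]
    (χ₀ : IrrCharacter G) (hp : p ∣ charDegree χ₀.1) (hk : ¬ N ≤ irrKer χ₀) :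
    npd p (G ⧸ N) + 1 ≤ npd p G := by
  classical
  haveI := Fintype.ofFinite G
  letI := fintypeIrr G
  haveI : Fintype (G ⧸ N) := Fintype.ofFinite _
  letI := fintypeIrr (G ⧸ N)
  let F : {χ : IrrCharacter (G ⧸ N) // p ∣ charDegree χ.1} →
      {χ : IrrCharacter G // p ∣ charDegree χ.1} :=
    fun χ => ⟨inflate N χ.1, by rw [charDegree_inflate]; exact χ.2⟩
  have hF : Function.Injective F := fun a b hab =>
    Subtype.ext (inflate_injective N (congrArg Subtype.val hab))
  have hnot : (⟨χ₀, hp⟩ : {χ : IrrCharacter G // p ∣ charDegree χ.1}) ∉ Set.range F := by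
    rintro ⟨χ', hχ'⟩
    apply hk
    intro x hx
    have h1 : inflate N χ'.1 = χ₀ := congrArg Subtype.val hχ'
    rw [mem_irrKer, ← h1]
    exact inflate_mem N χ'.1 x hx
  have h := Fintype.card_lt_of_injective_of_notMem F hF hnot
  unfold npd
  rw [Nat.card_eq_fintype_card, Nat.card_eq_fintype_card]
  exact h

/-- The determinant trick: if `ψ` restricted along `ι : M → T` is `d` times the linear character
`lam` and `d` is prime to `|M|`, then `lam` extends to a linear character of `T`. -/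
theorem exists_linear_ext_of_det {T M : Type u} [Group T] [Finite T] [Group M] [Finite M]
    (ι : M →* T) (lam : M →* ℂˣ) {ψ : T → ℂ} (hψ : IsCharacter T ψ) (d : ℕ)
    (hres : ∀ m : M, ψ (ι m) = (d : ℂ) * ((lam m : ℂˣ) : ℂ)) (hcop : d.Coprime (Nat.card M)) :
    ∃ ν : T →* ℂˣ, ∀ m : M, ν (ι m) = lam m := by
  classical
  -- the determinant on `M`
  have htriv : IsCharacter M (fun _ : M => (d : ℂ)) ∧
      ∀ m : M, detChar (fun _ : M => (d : ℂ)) m = 1 := by
    let ρ : Representation ℂ M (Fin d → ℂ) := Representation.trivial ℂ M (Fin d → ℂ)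
    have hρ : ρ.character = fun _ : M => (d : ℂ) := by
      funext m
      show LinearMap.trace ℂ (Fin d → ℂ) (ρ m) = d
      have : ρ m = LinearMap.id := rfl
      rw [this, LinearMap.trace_id]
      simp
    refine ⟨hρ ▸ Cfsg.Agent.H82.isCharacter_of_rep ρ, fun m => ?_⟩
    rw [← hρ, detChar_character]
    have : ρ m = LinearMap.id := rfl
    rw [this]
    exact LinearMap.det_id
  have hdet : ∀ m : M, detChar ψ (ι m) = ((lam m : ℂˣ) : ℂ) ^ d := by
    intro m
    rw [← detChar_comp ι hψ m]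
    have e : (fun x : M => ψ (ι x)) = fun x => ((lam x : ℂˣ) : ℂ) * (fun _ : M => (d : ℂ)) x := by
      funext x
      rw [hres x, mul_comm]
    rw [e, detChar_linear_mul lam htriv.1 m, htriv.2 m, mul_one]
    congr 1
    show ⌊((d : ℂ)).re⌋₊ = d
    simp
  haveI : NeZero (Nat.card M) := ⟨Nat.card_pos.ne'⟩
  obtain ⟨a, ha⟩ : ∃ a : ℕ, d * a ≡ 1 [MOD Nat.card M] := by
    let u := ZMod.unitOfCoprime d hcop
    refine ⟨((u⁻¹ : (ZMod (Nat.card M))ˣ) : ZMod (Nat.card M)).val, ?_⟩
    rw [← ZMod.natCast_eq_natCast_iff]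
    push_cast
    rw [ZMod.natCast_zmod_val, ← ZMod.coe_unitOfCoprime d hcop, ← Units.val_mul, mul_inv_cancel,
      Units.val_one]
  refine ⟨(detHom ψ) ^ a, fun m => ?_⟩
  apply Units.ext
  rw [MonoidHom.pow_apply, Units.val_pow_eq_pow_val, detHom_apply, hdet m, ← pow_mul]
  have hpow : (lam m) ^ Nat.card M = 1 := by
    rw [← map_pow, pow_card_eq_one', map_one]
  have hord : orderOf (lam m) ∣ Nat.card M := orderOf_dvd_of_pow_eq_one hpow
  have h2 : d * a ≡ 1 [MOD orderOf (lam m)] := Nat.ModEq.of_dvd hord ha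
  have h3 := pow_eq_pow_iff_modEq.mpr h2
  rw [pow_one] at h3
  have h4 := congrArg Units.val h3
  rw [Units.val_pow_eq_pow_val] at h4
  exact h4

set_option maxHeartbeats 1000000 in
/-- If `M` is a nontrivial abelian normal `p`-subgroup of the `p`-solvable group `G` and every
irreducible character of `G` whose kernel does not contain `M` has degree prime to `p`, then the
Sylow `p`-subgroups of `G` have derived length at most `2`. -/
theorem dl_two_of_pprime_over {G : Type u} [Group G] [Finite G] (p : ℕ) [Fact p.Prime]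
    (hsolv : IsPSolvable p G) (M : Subgroup G) [M.Normal] (hMp : IsPGroup p M)
    (hMab : ∀ a ∈ M, ∀ b ∈ M, a * b = b * a) (hM : M ≠ ⊥)
    (hdeg : ∀ χ : IrrCharacter G, ¬ M ≤ irrKer χ → ¬ p ∣ charDegree χ.1) (P : Sylow p G) :
    derivedSeries ↥(P : Subgroup G) 2 = ⊥ := by
  classical
  have hpp : p.Prime := Fact.out
  haveI : Fintype G := Fintype.ofFinite G
  haveI : Fintype ↥M := Fintype.ofFinite _
  obtain ⟨⟨m₀, hm₀M⟩, hm₀⟩ := (Subgroup.ne_bot_iff_exists_ne_one).mp hM
  obtain ⟨lam, hlam, -⟩ := exists_irr_two_ne hm₀ hm₀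
  have hMc : ∀ a b : ↥M, a * b = b * a := fun a b => Subtype.ext (hMab a a.2 b b.2)
  have hlam1 : lam.1 1 = 1 := (irr_linear_of_comm hMc lam.2).1
  obtain ⟨T, hT⟩ : ∃ T : Subgroup G, T = Clifford.inertia M lam.1 := ⟨_, rfl⟩
  have hMT : M ≤ T := by
    rw [hT]
    exact le_inertia M (isClassFunction_of_isCharacter (isCharacter_of_isIrrCharacter lam.2))
  haveI : Fintype ↥T := Fintype.ofFinite _
  -- every `χ` over `lam` has degree prime to `p`
  have hover : ∀ χ : IrrCharacter G, classInner (fun n : M => χ.1 n) lam.1 ≠ 0 →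
      ¬ p ∣ charDegree χ.1 := by
    intro χ hχ
    apply hdeg
    intro hle
    apply hlam
    refine ker_of_constituent (isCharacter_restrict M (isCharacter_of_isIrrCharacter χ.2)) lam.2
      hχ ?_
    exact (mem_irrKer χ m₀).mp (hle hm₀M)
  obtain ⟨χ, hχ, hχne⟩ := Cfsg.Agent.ItoConv.exists_irr_over M lam.2
  have hidx : ¬ p ∣ T.index := by
    obtain ⟨f, hf⟩ := Cfsg.Agent.ItoConv.degree_over M lam ⟨χ, hχ⟩ hχne
    intro hdvd
    apply hover ⟨χ, hχ⟩ hχne
    rw [hf, ← hT]
    exact Dvd.dvd.mul_right (Dvd.dvd.mul_right hdvd _) _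
  obtain ⟨ψ₀, hψ₀, hind, hc⟩ := clifford_corr_surj lam.2 hMT hT hχ hχne
  have hoverT : ∀ ψ : ↥T → ℂ, IsIrrCharacter ↥T ψ →
      classInner (fun n : M => ψ ⟨n, hMT n.2⟩) lam.1 ≠ 0 → ¬ p ∣ charDegree ψ := by
    intro ψ hψ hne
    obtain ⟨hirr, hmult⟩ := clifford_corr_irr lam.2 hMT hT hψ hne
    have h1 := hover ⟨indFun T ψ, hirr⟩ (by rw [hmult]; exact hne)
    intro hdvd
    apply h1
    have h2 : charDegree (indFun T ψ) = T.index * charDegree ψ := by
      have h3 : ((charDegree (indFun T ψ) : ℕ) : ℂ) = ((T.index * charDegree ψ : ℕ) : ℂ) := by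
        rw [← irr_one_eq_charDegree ⟨indFun T ψ, hirr⟩]
        push_cast
        rw [← irr_one_eq_charDegree ⟨ψ, hψ⟩]
        exact indFun_one_eq T ψ
      exact_mod_cast h3
    rw [h2]
    exact Dvd.dvd.mul_left hdvd _
  have hcne : classInner (fun n : M => ψ₀ ⟨n, hMT n.2⟩) lam.1 ≠ 0 := by rw [hc]; exact hχne
  have hres := res_eq_smul_of_le_inertia lam.2 hMT (le_of_eq hT) hψ₀ hcne
  obtain ⟨d, hd⟩ : ∃ d : ℕ, d = charDegree ψ₀ := ⟨_, rfl⟩
  have hd1 : ψ₀ 1 = (d : ℂ) := by rw [hd]; exact irr_one_eq_charDegree ⟨ψ₀, hψ₀⟩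
  have hcd : classInner (fun n : M => ψ₀ ⟨n, hMT n.2⟩) lam.1 = (d : ℂ) := by
    have h3 := congrFun hres 1
    simp only [Pi.smul_apply, smul_eq_mul] at h3
    rw [hlam1, mul_one] at h3
    rw [← h3]
    exact hd1
  have hresm : ∀ m : ↥M, ψ₀ ⟨m, hMT m.2⟩ = (d : ℂ) * lam.1 m := by
    intro m
    have h3 := congrFun hres m
    simp only [Pi.smul_apply, smul_eq_mul] at h3
    rw [hcd] at h3
    exact h3
  have hpd : ¬ p ∣ d := by rw [hd]; exact hoverT ψ₀ hψ₀ hcne
  have hcop : d.Coprime (Nat.card ↥M) := by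
    obtain ⟨k, hk⟩ := IsPGroup.iff_card.mp hMp
    rw [hk]
    exact Nat.Coprime.pow_right k ((Nat.Prime.coprime_iff_not_dvd hpp).mpr hpd).symm
  obtain ⟨ν, hν⟩ := exists_linear_ext_of_det (Subgroup.inclusion hMT) (irrLinearHom lam hlam1)
    (isCharacter_of_isIrrCharacter hψ₀) d (fun m => hresm m) hcop
  obtain ⟨M', hM'⟩ : ∃ M' : Subgroup ↥T, M' = M.subgroupOf T := ⟨_, rfl⟩
  haveI : M'.Normal := by rw [hM']; infer_instance
  have hPP : Cfsg.Agent.ItoConv.PPrimeDeg p (↥T ⧸ M') := by
    intro β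
    have hirr := Cfsg.Agent.H16.isIrrCharacter_mul_hom (inflate M' β).2 ν
    have hne : classInner (fun n : M =>
        (fun t : ↥T => (inflate M' β).1 t * ((ν t : ℂˣ) : ℂ)) ⟨n, hMT n.2⟩) lam.1 ≠ 0 := by
      have h1 : (fun n : M =>
          (fun t : ↥T => (inflate M' β).1 t * ((ν t : ℂˣ) : ℂ)) ⟨n, hMT n.2⟩) =
          (β.1 1) • lam.1 := by
        funext n
        show (inflate M' β).1 ⟨n, hMT n.2⟩ * ((ν ⟨n, hMT n.2⟩ : ℂˣ) : ℂ) = β.1 1 * lam.1 n
        have hmem : (⟨n, hMT n.2⟩ : ↥T) ∈ M' := by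
          rw [hM', Subgroup.mem_subgroupOf]; exact n.2
        rw [inflate_apply, (QuotientGroup.eq_one_iff _).mpr hmem]
        have h2 : ν ⟨n, hMT n.2⟩ = irrLinearHom lam hlam1 n := hν n
        rw [h2, irrLinearHom_apply]
      rw [h1, classInner_smul_left, classInner_irr_irr lam.2 lam.2, if_pos rfl, mul_one]
      exact Cfsg.Agent.H82.irr_one_ne_zero β
    have h2 := hoverT _ hirr hne
    have h3 : charDegree (fun t : ↥T => (inflate M' β).1 t * ((ν t : ℂˣ) : ℂ)) =
        charDegree β.1 := by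
      show ⌊((inflate M' β).1 1 * ((ν 1 : ℂˣ) : ℂ)).re⌋₊ = ⌊(β.1 1).re⌋₊
      rw [map_one, Units.val_one, mul_one, inflate_apply, QuotientGroup.mk_one]
    rw [h3] at h2
    exact h2
  have hsolvT : IsPSolvable p ↥T := Cfsg.Agent.H73.isPSolvable_subgroup hsolv T
  have hsolvQ : IsPSolvable p (↥T ⧸ M') := Cfsg.Agent.H80.isPSolvable_quotient p M' hsolvT
  obtain ⟨A, hAn, hAp, hAidx, hAab⟩ :=
    Cfsg.Agent.ItoConv.exists_normal_abelian_sylow p _ (↥T ⧸ M') rfl hsolvQ hPP
  haveI := hAn
  obtain ⟨P₀⟩ : Nonempty (Sylow p ↥T) := inferInstance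
  obtain ⟨f, hf⟩ : ∃ f : ↥(P₀ : Subgroup ↥T) →* ↥T ⧸ M',
      f = (QuotientGroup.mk' M').comp (P₀ : Subgroup ↥T).subtype := ⟨_, rfl⟩
  have hfA : ∀ a : ↥(P₀ : Subgroup ↥T), f a ∈ A := by
    intro a
    apply Cfsg.Agent.H92.mem_of_coprime_index A
    obtain ⟨k, hk⟩ := P₀.isPGroup' a
    have h1 : orderOf (f a) ∣ p ^ k := orderOf_dvd_of_pow_eq_one (by rw [← map_pow, hk, map_one])
    obtain ⟨j, -, hj⟩ := (Nat.dvd_prime_pow hpp).mp h1
    rw [hj]
    exact Nat.Coprime.pow_left j ((Nat.Prime.coprime_iff_not_dvd hpp).mpr hAidx)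
  have hD₀ : derivedSeries ↥(P₀ : Subgroup ↥T) 2 = ⊥ := by
    apply dl_succ_of_ker f 1
    · rw [derivedSeries_one, commutator_def, Subgroup.commutator_le]
      intro a _ b _
      rw [MonoidHom.mem_ker, map_commutatorElement, commutatorElement_eq_one_iff_mul_comm]
      exact hAab _ (hfA a) _ (hfA b)
    · intro a ha b hb
      rw [MonoidHom.mem_ker] at ha hb
      have hker : ∀ x : ↥(P₀ : Subgroup ↥T), f x = 1 → ((x : ↥T) : G) ∈ M := by
        intro x hx
        rw [hf] at hx
        have h1 : (x : ↥T) ∈ M' := (QuotientGroup.eq_one_iff _).mp hx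
        rw [hM', Subgroup.mem_subgroupOf] at h1
        exact h1
      exact Subtype.ext (Subtype.ext (hMab _ (hker a ha) _ (hker b hb)))
  obtain ⟨P', hP'⟩ := Cfsg.Agent.H80.exists_sylow_of_sylow_subgroup p T hidx P₀
  let e1 : ↥(P : Subgroup G) ≃* ↥(P' : Subgroup G) := Sylow.equiv P P'
  let e2 : ↥(P₀ : Subgroup ↥T) ≃* ↥((P₀ : Subgroup ↥T).map T.subtype) :=
    Subgroup.equivMapOfInjective _ _ T.subtype_injective
  let e3 : ↥(P' : Subgroup G) ≃* ↥((P₀ : Subgroup ↥T).map T.subtype) := MulEquiv.subgroupCongr hP'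
  exact dl_of_injective ((e1.trans (e3.trans e2.symm)).toMonoidHom)
    (e1.trans (e3.trans e2.symm)).injective 2 hD₀

set_option maxHeartbeats 1000000 in
/-- For a `p`-solvable group with `n` irreducible characters of degree divisible by `p`, the
Sylow `p`-subgroups have derived length at most `n + 1`. -/
theorem dl_main (p : ℕ) [Fact p.Prime] : ∀ (n : ℕ) (G : Type u) [Group G] [Finite G],
    Nat.card G = n → IsPSolvable p G → ∀ P : Sylow p G,
      derivedSeries ↥(P : Subgroup G) (npd p G + 1) = ⊥ := by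
  intro n
  induction n using Nat.strong_induction_on with
  | _ n ih =>
    intro G _ _ hn hsolv P
    classical
    have hpp : p.Prime := Fact.out
    haveI : Fintype G := Fintype.ofFinite G
    letI := fintypeIrr G
    have hquot : ∀ (N : Subgroup G) [N.Normal], N ≠ ⊥ →
        ∃ (Q : Sylow p (G ⧸ N)) (f : ↥(P : Subgroup G) →* ↥(Q : Subgroup (G ⧸ N))),
          (∀ x, ((f x : ↥(Q : Subgroup (G ⧸ N))) : G ⧸ N) = QuotientGroup.mk (x : G)) ∧
          derivedSeries ↥(Q : Subgroup (G ⧸ N)) (npd p (G ⧸ N) + 1) = ⊥ := by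
      intro N _ hN
      obtain ⟨Q, f, hf⟩ := sylow_quot P N
      refine ⟨Q, f, hf, ih (Nat.card (G ⧸ N)) ?_ (G ⧸ N) rfl
        (Cfsg.Agent.H80.isPSolvable_quotient p N hsolv) Q⟩
      rw [← hn, ← Subgroup.index_eq_card, ← Subgroup.card_mul_index N]
      have h1 : 1 < Nat.card ↥N := (Subgroup.one_lt_card_iff_ne_bot N).mpr hN
      have h2 : 0 < N.index := Nat.pos_of_ne_zero Subgroup.index_ne_zero_of_finite
      nlinarith
    by_cases h0 : npd p G = 0
    · have hPP : Cfsg.Agent.ItoConv.PPrimeDeg p G := by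
        intro χ hdvd
        haveI : Nonempty {χ : IrrCharacter G // p ∣ charDegree χ.1} := ⟨⟨χ, hdvd⟩⟩
        have hpos : 0 < npd p G := Nat.card_pos
        omega
      obtain ⟨A, hAn, hAp, hAidx, hAab⟩ :=
        Cfsg.Agent.ItoConv.exists_normal_abelian_sylow p n G hn hsolv hPP
      haveI := hAn
      have hPA : (P : Subgroup G) ≤ A := by
        intro x hx
        apply Cfsg.Agent.H92.mem_of_coprime_index A
        obtain ⟨k, hk⟩ := P.isPGroup' ⟨x, hx⟩
        have hk' : x ^ p ^ k = 1 := by simpa using congrArg Subtype.val hk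
        obtain ⟨j, -, hj⟩ := (Nat.dvd_prime_pow hpp).mp (orderOf_dvd_of_pow_eq_one hk')
        rw [hj]
        exact Nat.Coprime.pow_left j ((Nat.Prime.coprime_iff_not_dvd hpp).mpr hAidx)
      rw [h0]
      refine dl_succ_of_ker (1 : ↥(P : Subgroup G) →* ↥(P : Subgroup G)) 0 ?_ ?_
      · intro x _
        rw [MonoidHom.mem_ker]
        rfl
      · intro a _ b _
        exact Subtype.ext (hAab _ (hPA a.2) _ (hPA b.2))
    by_cases hK : pPrimeCore p G = ⊥
    · have hcent := Cfsg.Agent.H80.centralizer_pCore_le p hsolv hK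
      haveI : (pCore p G).Normal := Cfsg.Agent.H80.pCore_normal p G
      obtain ⟨M, hM⟩ : ∃ M : Subgroup G,
          M = (Subgroup.center ↥(pCore p G)).map (pCore p G).subtype := ⟨_, rfl⟩
      haveI hMn : M.Normal := by rw [hM]; exact ConjAct.normal_of_characteristic_of_normal
      have hMab : ∀ a ∈ M, ∀ b ∈ M, a * b = b * a := by
        rw [hM]
        rintro _ ⟨a, ha, rfl⟩ _ ⟨b, hb, rfl⟩
        have h1 := Subgroup.mem_center_iff.mp ha b
        exact congrArg Subtype.val h1.symm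
      have hMle : M ≤ pCore p G := by rw [hM]; exact Subgroup.map_subtype_le _
      have hMp : IsPGroup p M := (Cfsg.Agent.H80.pCore_isPGroup p G).to_le hMle
      by_cases hMbot : M = ⊥
      · have hcore : pCore p G = ⊥ := by
          by_contra hne
          haveI : Nontrivial ↥(pCore p G) := (Subgroup.nontrivial_iff_ne_bot _).mpr hne
          haveI hc := (Cfsg.Agent.H80.pCore_isPGroup p G).center_nontrivial
          obtain ⟨z, hz⟩ := exists_ne (1 : ↥(Subgroup.center ↥(pCore p G)))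
          have h1 : ((z : ↥(pCore p G)) : G) ∈ M := by
            rw [hM]; exact Subgroup.mem_map_of_mem _ z.2
          rw [hMbot, Subgroup.mem_bot] at h1
          exact hz (Subtype.ext (Subtype.ext h1))
        have hall : ∀ g : G, g = 1 := by
          intro g
          have h1 : g ∈ pCore p G := by
            apply hcent
            rw [Subgroup.mem_centralizer_iff]
            intro h hh
            rw [hcore] at hh
            have h2 : h = 1 := hh
            rw [h2, one_mul, mul_one]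
          rw [hcore] at h1
          exact h1
        rw [eq_bot_iff]
        intro x _
        rw [Subgroup.mem_bot]
        exact Subtype.ext ((hall _).trans (hall _).symm)
      · by_cases hex : ∃ χ : IrrCharacter G, p ∣ charDegree χ.1 ∧ ¬ M ≤ irrKer χ
        · obtain ⟨χ₀, hχ₀p, hχ₀k⟩ := hex
          obtain ⟨Q, f, hf, hQ⟩ := hquot M hMbot
          have hlt := npd_quot_lt p M χ₀ hχ₀p hχ₀k
          have hker : ∀ x : ↥(P : Subgroup G), f x = 1 → (x : G) ∈ M := by
            intro x hx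
            have h2 : ((f x : ↥(Q : Subgroup (G ⧸ M))) : G ⧸ M) = 1 := by rw [hx]; rfl
            rw [hf, QuotientGroup.eq_one_iff] at h2
            exact h2
          have h1 := dl_succ_of_map f _ hQ (by
            intro a ha b hb
            rw [MonoidHom.mem_ker] at ha hb
            exact Subtype.ext (hMab _ (hker a ha) _ (hker b hb)))
          exact dl_mono (by omega) h1
        · push Not at hex
          have h2 := dl_two_of_pprime_over p hsolv M hMp hMab hMbot
            (fun χ hk hp => hk (hex χ hp)) P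
          exact dl_mono (by omega) h2
    · haveI : (pPrimeCore p G).Normal := Cfsg.Agent.H80.pPrimeCore_normal p G
      obtain ⟨Q, f, hf, hQ⟩ := hquot (pPrimeCore p G) hK
      have hinj : Function.Injective f := by
        rw [injective_iff_map_eq_one]
        intro x hx
        have h1 : ((f x : ↥(Q : Subgroup (G ⧸ pPrimeCore p G))) : G ⧸ pPrimeCore p G) = 1 := by
          rw [hx]; rfl
        rw [hf, QuotientGroup.eq_one_iff] at h1
        have h2 : orderOf (x : G) ∣ Nat.card ↥(pPrimeCore p G) := by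
          have h3 := orderOf_dvd_natCard (⟨(x : G), h1⟩ : ↥(pPrimeCore p G))
          rwa [Subgroup.orderOf_mk] at h3
        obtain ⟨k, hk⟩ := P.isPGroup' x
        have h3 : orderOf (x : G) ∣ p ^ k :=
          orderOf_dvd_of_pow_eq_one (by simpa using congrArg Subtype.val hk)
        have hc : (Nat.card ↥(pPrimeCore p G)).Coprime (p ^ k) :=
          Nat.Coprime.pow_right k (Cfsg.Agent.H80.pPrimeCore_coprime p G)
        have h4 : orderOf (x : G) = 1 := Nat.eq_one_of_dvd_coprimes hc h2 h3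
        exact Subtype.ext (orderOf_eq_one_iff.mp h4)
      have hle := npd_quot_le p (pPrimeCore p G)
      exact dl_mono (by omega) (dl_of_injective f hinj _ hQ)

end Cfsg.Agent.H32
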