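import Mathlib
import Cfsg.Agent.H59.FRDefs
import Cfsg.Agent.H82.Ramified
import Cfsg.Agent.H4.Clifford

set_option autoImplicit false

/-!
# S4563-A1: characters over a fully ramified character (helper32, for helper59)

In the local setting `Loc G Z M θ ξ e₁` (`ξ ∈ Irr(G)` fully ramified over `Z` w.r.t. `θ`,
`Z ≤ M ⊴ G`): `G` is transitive on `Irr(M | θ)` and the multiplicity `c` of `η ∈ Irr(M | θ)` in
`ξ_M` satisfies `c² = |I_G(η) : M|`.
-/

namespace Cfsg.Agent.H32.FR

open Cfsg Cfsg.Agent.Clifford Cfsg.Agent.H59.FR Cfsg.Agent.H4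

open scoped ComplexConjugate

universe u

section aux

variable {G : Type u} [Group G] [Fintype G] {Z M : Subgroup G} [Fintype ↥Z] [Fintype ↥M]

/-- multiplicity transfer, contrapositive form: if `θ'` does not occur in `χ_Z`, then an
irreducible character `η` of `M` does not occur in `χ_M` or `θ'` does not occur in `η_Z`. -/
theorem inner_zero_or (hZM : Z ≤ M) {θ' : ↥Z → ℂ} (hθ' : IsIrrCharacter ↥Z θ') {χ : G → ℂ}
    (hχ : IsCharacter G χ) (h0 : classInner (fun z : ↥Z => χ z) θ' = 0) {η : ↥M → ℂ}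
    (hη : IsIrrCharacter ↥M η) :
    classInner (fun m : ↥M => χ m) η = 0 ∨
      classInner (fun z : ↥Z => η ⟨z, hZM z.2⟩) θ' = 0 := by
  classical
  letI := fintypeIrr ↥M
  obtain ⟨b, d, hb, hd, hbd⟩ := res_expand_nat hθ' hZM hχ
  rw [h0, finsum_irr_eq_sum] at hbd
  have hsum : ∑ ψ' : IrrCharacter ↥M, b ψ' * d ψ' = 0 := by exact_mod_cast hbd.symm
  have hterm := (Finset.sum_eq_zero_iff.mp hsum) ⟨η, hη⟩ (Finset.mem_univ _)
  rcases Nat.mul_eq_zero.mp hterm with h | h
  · left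
    have := hb ⟨η, hη⟩
    rw [h, Nat.cast_zero] at this
    exact this
  · right
    have := hd ⟨η, hη⟩
    rw [h, Nat.cast_zero] at this
    exact this

/-- an irreducible character of `M` whose restriction to `Z` involves only `θ` lies over `θ`. -/
theorem over_of_forall (hZM : Z ≤ M) {θ : ↥Z → ℂ} (hθ : IsIrrCharacter ↥Z θ) {η : ↥M → ℂ}
    (hη : IsIrrCharacter ↥M η)
    (h : ∀ θ' : IrrCharacter ↥Z, θ'.1 ≠ θ →
      classInner (fun z : ↥Z => η ⟨z, hZM z.2⟩) θ'.1 = 0) :
    Over Z M hZM θ η := by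
  classical
  letI := fintypeIrr ↥Z
  refine ⟨hη, ?_⟩
  have hres : IsCharacter ↥Z (fun z : ↥Z => η ⟨z, hZM z.2⟩) :=
    isCharacter_comp (Subgroup.inclusion hZM) (isCharacter_of_isIrrCharacter hη)
  obtain ⟨b, hb⟩ := classInner_isCharacter_nat hres (isCharacter_of_isIrrCharacter hθ)
  have hexp := classFunction_eq_finsum (isClassFunction_of_isCharacter hres)
  rw [finsum_irr_eq_sum, Finset.sum_eq_single (⟨θ, hθ⟩ : IrrCharacter ↥Z)] at hexp
  · have hval : ∀ z : ↥Z, η ⟨z, hZM z.2⟩ = (b : ℂ) * θ z := by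
      intro z
      have h1 := congrFun hexp z
      rw [hb] at h1
      exact h1
    refine ⟨b, ?_, hval⟩
    rintro rfl
    have h1 := hval 1
    rw [Nat.cast_zero, zero_mul] at h1
    have h2 : (⟨((1 : ↥Z) : G), hZM (1 : ↥Z).2⟩ : ↥M) = 1 := Subtype.ext rfl
    rw [h2] at h1
    exact irr_one_ne_zero (⟨η, hη⟩ : IrrCharacter ↥M) h1
  · intro θ' _ hne
    rw [h θ' (fun h' => hne (Subtype.ext h')), zero_smul]
  · intro hnot
    exact absurd (Finset.mem_univ _) hnot

/-- `[η_Z, θ] ≠ 0` for `η` over `θ`. -/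
theorem inner_of_over (hZM : Z ≤ M) {θ : ↥Z → ℂ} (hθ : IsIrrCharacter ↥Z θ) {η : ↥M → ℂ}
    (hη : Over Z M hZM θ η) : classInner (fun z : ↥Z => η ⟨z, hZM z.2⟩) θ ≠ 0 := by
  obtain ⟨-, b, hb0, hb⟩ := hη
  have h1 : (fun z : ↥Z => η ⟨z, hZM z.2⟩) = (b : ℂ) • θ := by
    funext z
    rw [hb z]
    rfl
  rw [h1, classInner_smul_left, show classInner θ θ = 1 from irr_inner_self ⟨θ, hθ⟩, mul_one]
  exact_mod_cast hb0

/-- an irreducible constituent of `ξ_M` lies over `θ`. -/
theorem over_of_constituent {θ : ↥Z → ℂ} {ξ : G → ℂ} {e₁ : ℕ} (hL : Loc G Z M θ ξ e₁)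
    {η : ↥M → ℂ} (hη : IsIrrCharacter ↥M η) (h : classInner (fun m : ↥M => ξ m) η ≠ 0) :
    Over Z M hL.le θ η := by
  apply over_of_forall hL.le hL.irrθ hη
  intro θ' hne
  have h0 : classInner (fun z : ↥Z => ξ z) θ'.1 = 0 := by
    have h1 : (fun z : ↥Z => ξ z) = (e₁ : ℂ) • θ := by
      funext z
      rw [hL.res z]
      rfl
    rw [h1, classInner_smul_left, classInner_irr_irr hL.irrθ θ'.2, if_neg (Ne.symm hne),
      mul_zero]
  rcases inner_zero_or hL.le θ'.2 (isCharacter_of_isIrrCharacter hL.irrξ) h0 hη with h2 | h2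
  · exact absurd h2 h
  · exact h2

/-- an irreducible character of `M` over `θ` is a constituent of `ξ_M`. -/
theorem inner_ne_zero_of_over {θ : ↥Z → ℂ} {ξ : G → ℂ} {e₁ : ℕ} (hL : Loc G Z M θ ξ e₁)
    {η : ↥M → ℂ} (hη : Over Z M hL.le θ η) : classInner (fun m : ↥M => ξ m) η ≠ 0 := by
  classical
  intro hzero
  have hηc : IsCharacter ↥M η := isCharacter_of_isIrrCharacter hη.1
  have hΦ : IsCharacter G (indFun M η) := isCharacter_indFun M η hηc
  have hall : ∀ ν : IrrCharacter G, classInner (indFun M η) ν.1 = 0 := by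
    intro ν
    rw [frobenius_reciprocity M η ν.1 (irr_isClassFunction ν)]
    by_cases hν : ν = ⟨ξ, hL.irrξ⟩
    · subst hν
      rw [← classInner_conj_symm, hzero, map_zero]
    · have h1 := Cfsg.Agent.H82.fully_ramified_unique Z ⟨ξ, hL.irrξ⟩ ⟨θ, hL.irrθ⟩ e₁ hL.sq
        hL.res ν hν
      rcases inner_zero_or hL.le hL.irrθ (isCharacter_of_isIrrCharacter ν.2) h1 hη.1 with
        h2 | h2
      · rw [← classInner_conj_symm, h2, map_zero]
      · exact absurd h2 (inner_of_over hL.le hL.irrθ hη)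
  have hzeroΦ := eq_zero_of_inner_irr_eq_zero (isClassFunction_of_isCharacter hΦ) hall
  have h1 := congrFun hzeroΦ 1
  rw [indFun_one_eq, Pi.zero_apply] at h1
  rcases mul_eq_zero.mp h1 with h2 | h2
  · have h3 : M.index ≠ 0 := Subgroup.index_ne_zero_of_finite
    exact h3 (by exact_mod_cast h2)
  · exact irr_one_ne_zero (⟨η, hη.1⟩ : IrrCharacter ↥M) h2

/-- `ξ_M` has an irreducible constituent. -/
theorem exists_constituent {ξ : G → ℂ} (hξ : IsIrrCharacter G ξ) :
    ∃ η : ↥M → ℂ, IsIrrCharacter ↥M η ∧ classInner (fun m : ↥M => ξ m) η ≠ 0 := by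
  by_contra hne
  push Not at hne
  have hres : IsClassFunction ↥M (fun m : ↥M => ξ m) :=
    isClassFunction_of_isCharacter (isCharacter_restrict M (isCharacter_of_isIrrCharacter hξ))
  have h0 := eq_zero_of_inner_irr_eq_zero hres (fun η => hne η.1 η.2)
  have h1 := congrFun h0 1
  exact irr_one_ne_zero (⟨ξ, hξ⟩ : IrrCharacter G) h1

/-- the norm of `ξ_M` is `|G : M|` (as `ξ` vanishes off `Z ≤ M`). -/
theorem inner_res_self {θ : ↥Z → ℂ} {ξ : G → ℂ} {e₁ : ℕ} (hL : Loc G Z M θ ξ e₁) :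
    classInner (fun m : ↥M => ξ m) (fun m : ↥M => ξ m) = (M.index : ℂ) := by
  classical
  have hvan : ∀ g : G, g ∉ M → ξ g = 0 := fun g hg =>
    Cfsg.Agent.H82.fully_ramified_vanish Z ⟨ξ, hL.irrξ⟩ ⟨θ, hL.irrθ⟩ e₁ hL.sq hL.res g
      (fun h => hg (hL.le h))
  have hnorm := Cfsg.Agent.H82.irr_norm_sq (⟨ξ, hL.irrξ⟩ : IrrCharacter G)
  have hsum : ∑ m : ↥M, ξ m * conj (ξ m) = ∑ g : G, ξ g * conj (ξ g) := by
    rw [← Finset.sum_subtype (Finset.univ.filter (· ∈ M)) (p := (· ∈ M)) (fun x => by simp)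
      (fun g => ξ g * conj (ξ g))]
    apply Finset.sum_filter_of_ne
    intro g _ hg
    by_contra hgM
    exact hg (by rw [hvan g hgM, zero_mul])
  unfold classInner
  rw [hsum, hnorm, ← Subgroup.index_mul_card M]
  have hM : (Nat.card ↥M : ℂ) ≠ 0 := by
    have : 0 < Nat.card ↥M := Nat.card_pos
    exact_mod_cast this.ne'
  push_cast
  field_simp

/-- orbit–stabilizer for the conjugates of `η`. -/
theorem card_orbit_conjChar [hM : M.Normal] (η : ↥M → ℂ) :
    Nat.card {ψ : ↥M → ℂ | ∃ g : G, ψ = conjChar M η g} = (Cfsg.Agent.Clifford.inertia M η).index := by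
  classical
  let F : G ⧸ Cfsg.Agent.Clifford.inertia M η → (↥M → ℂ) := fun q =>
    Quotient.liftOn' q (fun g => conjChar M η g⁻¹) (by
      intro a b hab
      rw [QuotientGroup.leftRel_apply] at hab
      have h1 : conjChar M η (a⁻¹ * b)⁻¹ = η := inv_mem hab
      show conjChar M η a⁻¹ = conjChar M η b⁻¹
      have h2 : b⁻¹ = (a⁻¹ * b)⁻¹ * a⁻¹ := by group
      rw [h2, ← conjChar_conjChar, h1])
  have hF : ∀ g : G, F (g : G ⧸ Cfsg.Agent.Clifford.inertia M η) = conjChar M η g⁻¹ := fun g => rfl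
  have hinj : Function.Injective F := by
    intro q q'
    obtain ⟨a, rfl⟩ := QuotientGroup.mk_surjective q
    obtain ⟨b, rfl⟩ := QuotientGroup.mk_surjective q'
    intro h
    rw [hF, hF] at h
    rw [QuotientGroup.eq]
    show conjChar M η (a⁻¹ * b) = η
    rw [← conjChar_conjChar, h, conjChar_conjChar, inv_mul_cancel, conjChar_one]
  have hrange : {ψ : ↥M → ℂ | ∃ g : G, ψ = conjChar M η g} = Set.range F := by
    ext ψ
    constructor
    · rintro ⟨g, rfl⟩
      exact ⟨((g⁻¹ : G) : G ⧸ Cfsg.Agent.Clifford.inertia M η), by rw [hF, inv_inv]⟩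
    · rintro ⟨q, rfl⟩
      obtain ⟨a, rfl⟩ := QuotientGroup.mk_surjective q
      exact ⟨a⁻¹, hF a⟩
  rw [hrange, Nat.card_range_of_injective hinj, Subgroup.index_eq_card]

end aux

theorem a1 : A1Stmt.{u} := by
  intro G _ _ Z M _ _ _ θ ξ e₁ hL
  classical
  let _ : Fintype G := Fintype.ofFinite G
  let _ : Fintype ↥Z := Fintype.ofFinite ↥Z
  have hξc : IsCharacter G ξ := isCharacter_of_isIrrCharacter hL.irrξ
  have hξcl : IsClassFunction G ξ := isClassFunction_of_isCharacter hξc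
  refine ⟨?_, ?_, ?_⟩
  · obtain ⟨η, hη, h⟩ := exists_constituent (M := M) hL.irrξ
    exact ⟨η, over_of_constituent hL hη h⟩
  · intro η η' hη hη'
    exact clifford_conj M hL.irrξ hη.1 hη'.1 (inner_ne_zero_of_over hL hη)
      (inner_ne_zero_of_over hL hη')
  · intro η hη
    have hne := inner_ne_zero_of_over hL hη
    obtain ⟨c, hc⟩ := classInner_isCharacter_nat (isCharacter_restrict M hξc)
      (isCharacter_of_isIrrCharacter hη.1)
    have hc0 : c ≠ 0 := by
      rintro rfl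
      exact hne (by rw [hc, Nat.cast_zero])
    refine ⟨c, hc0, hc, ?_⟩
    have hres := clifford_res M hL.irrξ hη.1 hne
    have hfin : {ψ : ↥M → ℂ | ∃ g : G, ψ = conjChar M η g}.Finite := by
      have : {ψ : ↥M → ℂ | ∃ g : G, ψ = conjChar M η g} =
          Set.range (fun g : G => conjChar M η g) := by
        ext ψ
        constructor
        · rintro ⟨g, rfl⟩; exact ⟨g, rfl⟩
        · rintro ⟨g, rfl⟩; exact ⟨g, rfl⟩
      rw [this]
      exact Set.finite_range _
    have hnorm : classInner (fun m : ↥M => ξ m) (fun m : ↥M => ξ m) =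
        (c : ℂ) * ((hfin.toFinset.card : ℂ) * (c : ℂ)) := by
      have h1 : classInner (fun m : ↥M => ξ m) (fun m : ↥M => ξ m) =
          classInner (fun m : ↥M => ξ m) (classInner (fun m : ↥M => ξ m) η •
            ∑ᶠ ψ ∈ {ψ : ↥M → ℂ | ∃ g : G, ψ = conjChar M η g}, ψ) :=
        congrArg (classInner (fun m : ↥M => ξ m)) hres
      rw [h1, classInner_smul_right, hc, Complex.conj_natCast,
        finsum_mem_eq_finite_toFinset_sum _ hfin, classInner_sum_right]
      congr 1
      rw [Finset.sum_congr rfl (g := fun _ => (c : ℂ))]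
      · rw [Finset.sum_const, nsmul_eq_mul]
      · intro ψ hψ
        rw [Set.Finite.mem_toFinset] at hψ
        obtain ⟨g, rfl⟩ := hψ
        rw [classInner_res_conjChar M hξcl η g, hc]
    rw [inner_res_self hL] at hnorm
    have hnat : M.index = c * (hfin.toFinset.card * c) := by exact_mod_cast hnorm
    have hcard : hfin.toFinset.card = (Cfsg.Agent.Clifford.inertia M η).index := by
      rw [← Nat.card_eq_card_finite_toFinset hfin]
      exact card_orbit_conjChar η
    rw [hcard] at hnat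
    have hle : M ≤ Cfsg.Agent.Clifford.inertia M η :=
      Cfsg.Agent.Clifford.le_inertia M (isClassFunction_of_isCharacter (isCharacter_of_isIrrCharacter hη.1))
    have hrel := Subgroup.relIndex_mul_index hle
    have hpos : 0 < (Cfsg.Agent.Clifford.inertia M η).index := Nat.pos_of_ne_zero Subgroup.index_ne_zero_of_finite
    apply Nat.eq_of_mul_eq_mul_right hpos
    rw [hrel, hnat]
    ring

end Cfsg.Agent.H32.FR
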