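import Mathlib
import Cfsg.Agent.H59.FRDefs
import Cfsg.Agent.H32.FRA1
import Cfsg.Agent.Lib.Helper96.Berger3

set_option autoImplicit false

/-!
# S4563-A3: a character of `M` homogeneous over `Z` induces to a multiple of the fully ramified
character (helper32, for helper59)
-/

namespace Cfsg.Agent.H32.FR

open Cfsg Cfsg.Agent.Clifford Cfsg.Agent.H59.FR Cfsg.Agent.H4

open scoped ComplexConjugate

universe u

section aux3

variable {G : Type u} [Group G] [Fintype G] {Z M : Subgroup G} [Fintype ↥Z] [Fintype ↥M]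

/-- multiplicity transfer for a character of `M` (contrapositive form). -/
theorem inner_zero_or' (hZM : Z ≤ M) {θ' : ↥Z → ℂ} (hθ' : IsIrrCharacter ↥Z θ') {ρ : ↥M → ℂ}
    (hρ : IsCharacter ↥M ρ) (h0 : classInner (fun z : ↥Z => ρ ⟨z, hZM z.2⟩) θ' = 0)
    {η : ↥M → ℂ} (hη : IsIrrCharacter ↥M η) :
    classInner ρ η = 0 ∨ classInner (fun z : ↥Z => η ⟨z, hZM z.2⟩) θ' = 0 := by
  classical
  letI := fintypeIrr ↥M
  obtain ⟨b, d, hb, hd, hbd⟩ := classInner_comp_expand_nat (A := ρ) hρ (Subgroup.inclusion hZM)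
    (isCharacter_of_isIrrCharacter hθ')
  have hbd' : classInner (fun z : ↥Z => ρ ⟨z, hZM z.2⟩) θ' =
      ((∑ᶠ χ : IrrCharacter ↥M, b χ * d χ : ℕ) : ℂ) := hbd
  rw [h0, finsum_irr_eq_sum] at hbd'
  have hsum : ∑ ψ' : IrrCharacter ↥M, b ψ' * d ψ' = 0 := by exact_mod_cast hbd'.symm
  have hterm := (Finset.sum_eq_zero_iff.mp hsum) ⟨η, hη⟩ (Finset.mem_univ _)
  rcases Nat.mul_eq_zero.mp hterm with h | h
  · left
    have := hb ⟨η, hη⟩
    rw [h, Nat.cast_zero] at this
    exact this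
  · right
    have := hd ⟨η, hη⟩
    rw [h, Nat.cast_zero] at this
    exact this

/-- a finite sum of natural numbers (in `ℂ`) is a natural number. -/
theorem exists_nat_sum {ι : Type*} (S : Finset ι) (F : ι → ℂ) (h : ∀ i ∈ S, ∃ n : ℕ, F i = n) :
    ∃ k : ℕ, ∑ i ∈ S, F i = k := by
  classical
  induction S using Finset.induction_on with
  | empty => exact ⟨0, by simp⟩
  | insert i S hi ih =>
    obtain ⟨k, hk⟩ := ih (fun j hj => h j (Finset.mem_insert_of_mem hj))
    obtain ⟨n, hn⟩ := h i (Finset.mem_insert_self i S)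
    exact ⟨n + k, by rw [Finset.sum_insert hi, hk, hn, Nat.cast_add]⟩

end aux3

theorem a3 : A3Stmt.{u} := by
  intro G _ _ Z M _ _ _ θ ξ e₁ hL ρ f hρ hρZ η hη c hc
  classical
  let _ : Fintype G := Fintype.ofFinite G
  let _ : Fintype ↥Z := Fintype.ofFinite ↥Z
  letI := fintypeIrr G
  have hξc : IsCharacter G ξ := isCharacter_of_isIrrCharacter hL.irrξ
  have hξcl : IsClassFunction G ξ := isClassFunction_of_isCharacter hξc
  have hΦ : IsCharacter G (indFun M ρ) := isCharacter_indFun M ρ hρ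
  -- only `ξ` occurs in `Φ`
  have hother : ∀ ν : IrrCharacter G, ν ≠ ⟨ξ, hL.irrξ⟩ → classInner (indFun M ρ) ν.1 = 0 := by
    intro ν hν
    rw [frobenius_reciprocity M ρ ν.1 (irr_isClassFunction ν)]
    by_contra hne
    obtain ⟨η₀, h1, h2⟩ := Cfsg.Agent.Lib.Helper96.exists_irr_constituent_inner hρ _ hne
    -- `η₀` lies over `θ`
    have hη₀ : Over Z M hL.le θ η₀.1 := by
      apply over_of_forall hL.le hL.irrθ η₀.2
      intro θ' hθ'
      have h0 : classInner (fun z : ↥Z => ρ ⟨z, hL.le z.2⟩) θ'.1 = 0 := by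
        have h3 : (fun z : ↥Z => ρ ⟨z, hL.le z.2⟩) = (f : ℂ) • θ := by
          funext z
          rw [hρZ z]
          rfl
        rw [h3, classInner_smul_left, classInner_irr_irr hL.irrθ θ'.2, if_neg (Ne.symm hθ'),
          mul_zero]
      rcases inner_zero_or' hL.le θ'.2 hρ h0 η₀.2 with h4 | h4
      · exact absurd h4 h1
      · exact h4
    have h5 := Cfsg.Agent.H82.fully_ramified_unique Z ⟨ξ, hL.irrξ⟩ ⟨θ, hL.irrθ⟩ e₁ hL.sq
      hL.res ν hν
    rcases inner_zero_or hL.le hL.irrθ (isCharacter_of_isIrrCharacter ν.2) h5 η₀.2 with h6 | h6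
    · apply h2
      rw [← classInner_conj_symm, h6, map_zero]
    · exact inner_of_over hL.le hL.irrθ hη₀ h6
  obtain ⟨a, ha⟩ := classInner_isCharacter_nat hΦ hξc
  have hexp := classFunction_eq_finsum (isClassFunction_of_isCharacter hΦ)
  rw [finsum_irr_eq_sum, Finset.sum_eq_single (⟨ξ, hL.irrξ⟩ : IrrCharacter G)
    (fun ν _ hν => by rw [hother ν hν, zero_smul])
    (fun hnot => absurd (Finset.mem_univ _) hnot)] at hexp
  refine ⟨a, ?_, ?_⟩
  · -- degrees
    have h1 := congrFun hexp 1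
    rw [indFun_one_eq, ha] at h1
    have h2 : ρ 1 = (f : ℂ) * θ 1 := by
      have h3 := hρZ 1
      have h4 : (⟨((1 : ↥Z) : G), hL.le (1 : ↥Z).2⟩ : ↥M) = 1 := Subtype.ext rfl
      rw [h4] at h3
      exact h3
    have h5 : ξ 1 = (e₁ : ℂ) * θ 1 := hL.res 1
    have h6 : ((M.index : ℂ) * ((f : ℂ) * θ 1)) = (a : ℂ) * ((e₁ : ℂ) * θ 1) := by
      rw [← h2, ← h5]
      exact h1
    have hθ1 : θ 1 ≠ 0 := irr_one_ne_zero (⟨θ, hL.irrθ⟩ : IrrCharacter ↥Z)
    have h7 : ((a * e₁ : ℕ) : ℂ) = ((f * M.index : ℕ) : ℂ) := by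
      push_cast
      apply mul_right_cancel₀ hθ1
      linear_combination -h6
    exact_mod_cast h7
  · -- divisibility
    have hne := inner_ne_zero_of_over hL hη
    have hres := clifford_res M hL.irrξ hη.1 hne
    have hfin : {ψ : ↥M → ℂ | ∃ g : G, ψ = conjChar M η g}.Finite := by
      have : {ψ : ↥M → ℂ | ∃ g : G, ψ = conjChar M η g} =
          Set.range (fun g : G => conjChar M η g) := by
        ext ψ
        constructor
        · rintro ⟨g, rfl⟩; exact ⟨g, rfl⟩
        · rintro ⟨g, rfl⟩; exact ⟨g, rfl⟩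
      rw [this]
      exact Set.finite_range _
    obtain ⟨k, hk⟩ := exists_nat_sum hfin.toFinset (fun ψ => classInner ρ ψ) (by
      intro ψ hψ
      rw [Set.Finite.mem_toFinset] at hψ
      obtain ⟨g, rfl⟩ := hψ
      exact classInner_isCharacter_nat hρ
        (isCharacter_conjChar M (isCharacter_of_isIrrCharacter hη.1) g))
    have h1 : classInner (indFun M ρ) ξ = (c : ℂ) * (k : ℂ) := by
      rw [frobenius_reciprocity M ρ ξ hξcl]
      have h2 : classInner ρ (fun m : ↥M => ξ m) =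
          classInner ρ (classInner (fun m : ↥M => ξ m) η •
            ∑ᶠ ψ ∈ {ψ : ↥M → ℂ | ∃ g : G, ψ = conjChar M η g}, ψ) :=
        congrArg (classInner ρ) hres
      rw [h2, classInner_smul_right, hc, Complex.conj_natCast,
        finsum_mem_eq_finite_toFinset_sum _ hfin, classInner_sum_right, hk]
    rw [ha] at h1
    have h3 : a = c * k := by exact_mod_cast h1
    exact ⟨k, h3⟩

end Cfsg.Agent.H32.FR
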