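import Mathlib
import Cfsg.Agent.H74.MCDefs
import Cfsg.Agent.H4.IrrCount
import Cfsg.Agent.H82.Extra
import Cfsg.Agent.H19.LinChar

/-!
# helper32: S4756-CENT (for helper74)

Column orthogonality split into linear and nonlinear characters:
`|C_G(g)| = [G : G'] + ∑_{χ nonlinear} |χ(g)|²`.
-/

set_option autoImplicit false
set_option linter.style.haveILetI false

namespace Cfsg.Agent.H32.MC

open Cfsg
open scoped ComplexConjugate

universe u

/-- A linear irreducible character has `χ(g) * conj χ(g) = 1`. -/
theorem lin_norm {G : Type u} [Group G] [Finite G] (χ : IrrCharacter G)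
    (h1 : charDegree (χ : G → ℂ) = 1) (g : G) :
    (χ : G → ℂ) g * conj ((χ : G → ℂ) g) = 1 := by
  have hχ1 : (χ : G → ℂ) 1 = 1 := by
    rw [Cfsg.Agent.H82.irr_one_eq_charDegree χ, h1]; simp
  have hc : Cfsg.IsCharacter G (χ : G → ℂ) := Cfsg.Agent.H4.isCharacter_of_isIrrCharacter χ.2
  rw [← Cfsg.Agent.H82.irr_inv χ g, ← Cfsg.Agent.H19.linChar_mul _ hc hχ1, mul_inv_cancel, hχ1]

/-- Column orthogonality, split: `|C(g)| = [G:G'] + ∑_{nonlinear} χ(g) conj χ(g)`. -/
theorem cent_split {G : Type u} [Group G] [Finite G] (g : G) :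
    ((Nat.card ↥(Subgroup.centralizer ({g} : Set G)) : ℕ) : ℂ) =
      ((commutator G).index : ℂ) +
        @Finset.sum (IrrCharacter G) ℂ _ (@Finset.univ _ (Cfsg.Agent.H4.fintypeIrr G))
          (fun χ : IrrCharacter G => if charDegree (χ : G → ℂ) = 1 then 0 else
            (χ : G → ℂ) g * conj ((χ : G → ℂ) g)) := by
  classical
  letI := Fintype.ofFinite G
  letI := Cfsg.Agent.H4.fintypeIrr G
  have hcol := Cfsg.Agent.H4.column_orthogonality (G := G) g g
  rw [Cfsg.Agent.H4.finsum_irr_eq_sum] at hcol
  have hcard : Nat.card {c : G // c * g * c⁻¹ = g} =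
      Nat.card ↥(Subgroup.centralizer ({g} : Set G)) := by
    apply Nat.card_congr
    refine Equiv.subtypeEquivRight (fun c => ?_)
    rw [Subgroup.mem_centralizer_iff]
    constructor
    · intro h x hx
      rw [Set.mem_singleton_iff] at hx
      subst hx
      have h2 : c * x = x * c := by
        calc c * x = c * x * c⁻¹ * c := by group
          _ = x * c := by rw [h]
      exact h2.symm
    · intro h
      have := h g (Set.mem_singleton g)
      rw [mul_inv_eq_iff_eq_mul]
      exact this.symm
  rw [hcard] at hcol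
  rw [← hcol, ← Finset.sum_filter_add_sum_filter_not Finset.univ
    (fun χ : IrrCharacter G => charDegree (χ : G → ℂ) = 1)]
  congr 1
  · rw [Finset.sum_congr rfl (fun χ hχ => lin_norm χ (Finset.mem_filter.mp hχ).2 g)]
    rw [Finset.sum_const, Cfsg.Agent.H82.card_filter_linear]
    simp
  · rw [Finset.sum_filter]
    apply Finset.sum_congr rfl
    intro χ _
    by_cases h : charDegree (χ : G → ℂ) = 1
    · simp [h]
    · simp [h]

/-- S4756-CENT. -/
theorem cent : Cfsg.Agent.H74.MC.StCent.{u} := by
  intro G _ _ z hz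
  classical
  have h := cent_split z
  have h0 : @Finset.sum (IrrCharacter G) ℂ _ (@Finset.univ _ (Cfsg.Agent.H4.fintypeIrr G))
          (fun χ : IrrCharacter G => if charDegree (χ : G → ℂ) = 1 then 0 else
            (χ : G → ℂ) z * conj ((χ : G → ℂ) z)) = 0 := by
    apply Finset.sum_eq_zero
    intro χ _
    by_cases h1 : charDegree (χ : G → ℂ) = 1
    · simp [h1]
    · simp [h1, hz χ h1]
  rw [h0, add_zero] at h
  have h'' : Nat.card ↥(Subgroup.centralizer ({z} : Set G)) = (commutator G).index := by
    exact_mod_cast h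
  rw [h'', mul_comm]
  exact Subgroup.card_mul_index (commutator G)

example : Cfsg.Agent.H74.MC.StCent.{u} := cent

end Cfsg.Agent.H32.MC
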