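import Mathlib
import Cfsg.Agent.H74.MCDefs
import Cfsg.Agent.H32.MCCent

/-!
# helper32: S4756-CONVVAN (for helper74)

If `|C_G(g)| * |G'| ≤ |G|` then every nonlinear irreducible character vanishes at `g`.
-/

set_option autoImplicit false
set_option linter.style.haveILetI false

namespace Cfsg.Agent.H32.MC

open Cfsg
open scoped ComplexConjugate

universe u

/-- S4756-CONVVAN. -/
theorem convVan : Cfsg.Agent.H74.MC.StConvVan.{u} := by
  intro G _ _ g hle χ hχ
  classical
  have h := cent_split g
  letI := Cfsg.Agent.H4.fintypeIrr G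
  -- rewrite in terms of normSq
  have hterm : ∀ ψ : IrrCharacter G,
      (if charDegree (ψ : G → ℂ) = 1 then (0 : ℂ) else
        (ψ : G → ℂ) g * conj ((ψ : G → ℂ) g)) =
      (((if charDegree (ψ : G → ℂ) = 1 then (0 : ℝ) else
        Complex.normSq ((ψ : G → ℂ) g)) : ℝ) : ℂ) := by
    intro ψ
    by_cases h1 : charDegree (ψ : G → ℂ) = 1
    · simp [h1]
    · simp [h1, Complex.mul_conj]
  rw [Finset.sum_congr rfl (fun ψ _ => hterm ψ), ← Complex.ofReal_sum] at h
  have hR : ((Nat.card ↥(Subgroup.centralizer ({g} : Set G)) : ℕ) : ℝ) =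
      ((commutator G).index : ℝ) +
        ∑ ψ : IrrCharacter G, (if charDegree (ψ : G → ℂ) = 1 then (0 : ℝ) else
          Complex.normSq ((ψ : G → ℂ) g)) := by
    exact_mod_cast h
  -- the index inequality
  have hidx : Nat.card ↥(Subgroup.centralizer ({g} : Set G)) ≤ (commutator G).index := by
    have hci := Subgroup.card_mul_index (commutator G)
    rw [← hci, mul_comm] at hle
    have hpos : 0 < Nat.card ↥(commutator G) := Nat.card_pos
    exact Nat.le_of_mul_le_mul_left hle hpos
  have hidxR : ((Nat.card ↥(Subgroup.centralizer ({g} : Set G)) : ℕ) : ℝ) ≤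
      ((commutator G).index : ℝ) := by exact_mod_cast hidx
  have hnonneg : ∀ ψ ∈ (Finset.univ : Finset (IrrCharacter G)),
      0 ≤ (if charDegree (ψ : G → ℂ) = 1 then (0 : ℝ) else
          Complex.normSq ((ψ : G → ℂ) g)) := by
    intro ψ _
    split_ifs
    · exact le_refl _
    · exact Complex.normSq_nonneg _
  have hsum : ∑ ψ : IrrCharacter G, (if charDegree (ψ : G → ℂ) = 1 then (0 : ℝ) else
          Complex.normSq ((ψ : G → ℂ) g)) = 0 := by
    have h1 := Finset.sum_nonneg hnonneg
    linarith
  have hz := (Finset.sum_eq_zero_iff_of_nonneg hnonneg).mp hsum χ (Finset.mem_univ χ)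
  rw [if_neg hχ] at hz
  exact Complex.normSq_eq_zero.mp hz

example : Cfsg.Agent.H74.MC.StConvVan.{u} := convVan

end Cfsg.Agent.H32.MC
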