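import Mathlib
import Cfsg.Agent.H85.McLDefs

/-!
# helper32: piece S5075-COMP (for helper85)

`exists_components`: the roots of a group `H` generated by its root elements, in which every
root has an opposite, split into finitely many connected components; the subgroups `K j`
generated by the root elements of the components are normal in `H`, generate `H`, and their
roots are exactly the roots of the components.
-/

set_option autoImplicit false

namespace Cfsg.Agent.H32.McL

open Module Cfsg.Agent.H85.McL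

variable {p : ℕ} [Fact p.Prime] {V : Type*} [AddCommGroup V] [Module (ZMod p) V]

/-- Roots of `H` as a subtype. -/
abbrev RT (H : Subgroup (V ≃ₗ[ZMod p] V)) : Type _ :=
  {r : V × Dual (ZMod p) V // Root H r.1 r.2}

theorem adj_symm (H : Subgroup (V ≃ₗ[ZMod p] V)) {r s : V × Dual (ZMod p) V}
    (h : Adj H r s) : Adj H s r :=
  ⟨h.2.1, h.1, h.2.2.symm⟩

theorem rtg_symm (H : Subgroup (V ≃ₗ[ZMod p] V)) {x y : V × Dual (ZMod p) V}
    (h : Relation.ReflTransGen (Adj H) x y) : Relation.ReflTransGen (Adj H) y x := by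
  induction h with
  | refl => exact Relation.ReflTransGen.refl
  | tail _ hbc ih => exact (Relation.ReflTransGen.single (adj_symm H hbc)).trans ih

/-- The "same connected component" setoid on the roots of `H`. -/
def compSetoid (H : Subgroup (V ≃ₗ[ZMod p] V)) : Setoid (RT H) where
  r x y := Relation.ReflTransGen (Adj H) x.1 y.1
  iseqv := ⟨fun _ => Relation.ReflTransGen.refl,
    fun h => rtg_symm H h,
    fun h1 h2 => h1.trans h2⟩

/-- Generators of the component subgroup: the root elements of the roots of a component. -/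
def gens (H : Subgroup (V ≃ₗ[ZMod p] V)) (q : Quotient (compSetoid H)) :
    Set (V ≃ₗ[ZMod p] V) :=
  {g | ∃ r : RT H, Quotient.mk (compSetoid H) r = q ∧ ∀ x, g x = x + r.1.2 x • r.1.1}

/-- The component subgroup. -/
def KK (H : Subgroup (V ≃ₗ[ZMod p] V)) (q : Quotient (compSetoid H)) :
    Subgroup (V ≃ₗ[ZMod p] V) :=
  Subgroup.closure (gens H q)

theorem gens_subset (H : Subgroup (V ≃ₗ[ZMod p] V)) (q : Quotient (compSetoid H)) :
    gens H q ⊆ (H : Set (V ≃ₗ[ZMod p] V)) := by
  rintro g ⟨r, -, hg⟩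
  obtain ⟨-, -, -, g₀, hg₀, hg₀x⟩ := r.2
  have : g = g₀ := LinearEquiv.ext fun x => by rw [hg, hg₀x]
  rw [this]; exact hg₀

theorem KK_le (H : Subgroup (V ≃ₗ[ZMod p] V)) (q : Quotient (compSetoid H)) : KK H q ≤ H :=
  (Subgroup.closure_le H).mpr (gens_subset H q)

theorem root_KK_of (H : Subgroup (V ≃ₗ[ZMod p] V)) (r : RT H) :
    Root (KK H (Quotient.mk (compSetoid H) r)) r.1.1 r.1.2 := by
  obtain ⟨ha, hφ, h0, g, hg, hgx⟩ := r.2
  exact ⟨ha, hφ, h0, g, Subgroup.subset_closure ⟨r, rfl, hgx⟩, hgx⟩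

theorem root_mono {K H : Subgroup (V ≃ₗ[ZMod p] V)} (hKH : K ≤ H) {a : V}
    {φ : Dual (ZMod p) V} (h : Root K a φ) : Root H a φ := by
  obtain ⟨ha, hφ, h0, g, hg, hgx⟩ := h
  exact ⟨ha, hφ, h0, g, hKH hg, hgx⟩

theorem class_of_root_KK {H : Subgroup (V ≃ₗ[ZMod p] V)} (hopp : HasOpp H)
    {q : Quotient (compSetoid H)} {a : V} {φ : Dual (ZMod p) V} (h : Root (KK H q) a φ) :
    Quotient.mk (compSetoid H) ⟨(a, φ), root_mono (KK_le H q) h⟩ = q := by
  by_contra hne
  have hH := root_mono (KK_le H q) h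
  obtain ⟨b, ψ, hbψ, h1, h2⟩ := hopp a φ hH
  have hfix : ∀ k ∈ KK H q, k b = b := by
    intro k hk
    induction hk using Subgroup.closure_induction with
    | mem g hg =>
      obtain ⟨r, hr, hgx⟩ := hg
      rw [hgx]
      have h0 : r.1.2 b = 0 := by
        by_contra hnz
        have e1 : Adj H (a, φ) (b, ψ) := ⟨hH, hbψ, Or.inl h1⟩
        have e2 : Adj H (b, ψ) r.1 := ⟨hbψ, r.2, Or.inl hnz⟩
        have e3 : Relation.ReflTransGen (Adj H) (a, φ) r.1 :=
          (Relation.ReflTransGen.single e1).trans (Relation.ReflTransGen.single e2)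
        have e4 : Quotient.mk (compSetoid H) ⟨(a, φ), hH⟩ = Quotient.mk (compSetoid H) r :=
          Quotient.sound e3
        exact hne (e4.trans hr)
      rw [h0, zero_smul, add_zero]
    | one => rfl
    | mul k k' _ _ ih ih' => rw [LinearEquiv.mul_apply, ih', ih]
    | inv k _ ih =>
      have h3 : (k⁻¹ : V ≃ₗ[ZMod p] V) (k b) = b := by
        rw [← LinearEquiv.mul_apply, inv_mul_cancel]
        rfl
      rw [ih] at h3
      exact h3
  obtain ⟨ha, -, -, g, hg, hgx⟩ := h
  have h3 := hfix g hg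
  rw [hgx] at h3
  have h4 : φ b • a = 0 := by simpa using h3
  rcases smul_eq_zero.mp h4 with h5 | h5
  · exact h2 h5
  · exact ha h5

theorem inv_mem_rootElems {H : Subgroup (V ≃ₗ[ZMod p] V)} {t : V ≃ₗ[ZMod p] V}
    (ht : t ∈ rootElems H) : t⁻¹ ∈ rootElems H := by
  obtain ⟨b, ψ, hbψ, htx⟩ := ht
  refine ⟨b, -ψ, hbψ.neg_right, ?_⟩
  intro x
  apply t.injective
  have h1 : t ((t⁻¹ : V ≃ₗ[ZMod p] V) x) = x := by
    rw [← LinearEquiv.mul_apply, mul_inv_cancel]
    rfl
  rw [h1, htx, map_add, map_smul, LinearMap.neg_apply, hbψ.2.2.1]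
  simp only [smul_eq_mul, mul_zero, add_zero]
  module

theorem conj_root_mem {H : Subgroup (V ≃ₗ[ZMod p] V)} {q : Quotient (compSetoid H)}
    {t : V ≃ₗ[ZMod p] V} (ht : t ∈ rootElems H) :
    ∀ k ∈ KK H q, t * k * t⁻¹ ∈ KK H q := by
  obtain ⟨b, ψ, hbψ, htx⟩ := ht
  have htH : t ∈ H := by
    obtain ⟨-, -, -, g₀, hg₀, hg₀x⟩ := hbψ
    have : t = g₀ := LinearEquiv.ext fun x => by rw [htx, hg₀x]
    rw [this]; exact hg₀
  have hψb : ψ b = 0 := hbψ.2.2.1
  have hinv : ∀ x, t.symm x = x - ψ x • b := by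
    intro x
    apply t.injective
    rw [LinearEquiv.apply_symm_apply, htx, map_sub, map_smul, hψb]
    module
  intro k hk
  induction hk using Subgroup.closure_induction with
  | mem g hg =>
    obtain ⟨r, hr, hgx⟩ := hg
    have hr' : Root H (t r.1.1) (r.1.2 ∘ₗ (t.symm : V →ₗ[ZMod p] V)) := r.2.map htH
    apply Subgroup.subset_closure
    refine ⟨⟨(t r.1.1, r.1.2 ∘ₗ (t.symm : V →ₗ[ZMod p] V)), hr'⟩, ?_, ?_⟩
    · rw [← hr]
      refine Quotient.sound ?_
      change Relation.ReflTransGen (Adj H) (t r.1.1, r.1.2 ∘ₗ (t.symm : V →ₗ[ZMod p] V)) r.1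
      by_cases hc : ψ r.1.1 = 0 ∧ r.1.2 b = 0
      · have e1 : t r.1.1 = r.1.1 := by rw [htx, hc.1, zero_smul, add_zero]
        have e2 : r.1.2 ∘ₗ (t.symm : V →ₗ[ZMod p] V) = r.1.2 := by
          ext x
          simp only [LinearMap.comp_apply, LinearEquiv.coe_coe, hinv, map_sub, map_smul, hc.2,
            smul_zero, sub_zero]
        rw [e1, e2]
      · have hc' : ψ r.1.1 ≠ 0 ∨ r.1.2 b ≠ 0 := by
          by_contra hcon
          push_neg at hcon
          exact hc hcon
        have v1 : ψ (t r.1.1) = ψ r.1.1 := by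
          rw [htx, map_add, map_smul, hψb, smul_zero, add_zero]
        have v2 : (r.1.2 ∘ₗ (t.symm : V →ₗ[ZMod p] V)) b = r.1.2 b := by
          simp only [LinearMap.comp_apply, LinearEquiv.coe_coe, hinv, hψb, zero_smul, sub_zero]
        have e1 : Adj H (t r.1.1, r.1.2 ∘ₗ (t.symm : V →ₗ[ZMod p] V)) (b, ψ) := by
          refine ⟨hr', hbψ, ?_⟩
          rcases hc' with h | h
          · left
            change ψ (t r.1.1) ≠ 0
            rw [v1]; exact h
          · right
            change (r.1.2 ∘ₗ (t.symm : V →ₗ[ZMod p] V)) b ≠ 0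
            rw [v2]; exact h
        have e2 : Adj H (b, ψ) r.1 := ⟨hbψ, r.2, hc'.symm⟩
        exact (Relation.ReflTransGen.single e1).trans (Relation.ReflTransGen.single e2)
    · intro x
      have h1 : (t⁻¹ : V ≃ₗ[ZMod p] V) x = t.symm x := rfl
      rw [LinearEquiv.mul_apply, LinearEquiv.mul_apply, hgx, map_add, map_smul, h1,
        LinearEquiv.apply_symm_apply]
      rfl
  | one => simp
  | mul k k' _ _ ih ih' =>
    have : t * (k * k') * t⁻¹ = (t * k * t⁻¹) * (t * k' * t⁻¹) := by group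
    rw [this]; exact (KK H q).mul_mem ih ih'
  | inv k _ ih =>
    have : t * k⁻¹ * t⁻¹ = (t * k * t⁻¹)⁻¹ := by group
    rw [this]; exact (KK H q).inv_mem ih

theorem conj_mem {H : Subgroup (V ≃ₗ[ZMod p] V)} (hgen : H = Subgroup.closure (rootElems H))
    {q : Quotient (compSetoid H)} :
    ∀ h ∈ H, ∀ k ∈ KK H q, h * k * h⁻¹ ∈ KK H q ∧ h⁻¹ * k * h ∈ KK H q := by
  intro h hh
  have hh' : h ∈ Subgroup.closure (rootElems H) := by rw [← hgen]; exact hh
  clear hh
  induction hh' using Subgroup.closure_induction with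
  | mem t ht =>
    intro k hk
    refine ⟨conj_root_mem ht k hk, ?_⟩
    have h1 := conj_root_mem (q := q) (inv_mem_rootElems ht) k hk
    rwa [inv_inv] at h1
  | one => intro k hk; simpa using hk
  | mul a b _ _ iha ihb =>
    intro k hk
    constructor
    · have : a * b * k * (a * b)⁻¹ = a * (b * k * b⁻¹) * a⁻¹ := by group
      rw [this]; exact (iha _ (ihb k hk).1).1
    · have : (a * b)⁻¹ * k * (a * b) = b⁻¹ * (a⁻¹ * k * a) * b := by group
      rw [this]; exact (ihb _ (iha k hk).2).2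
  | inv a _ iha =>
    intro k hk
    constructor
    · have h1 := (iha k hk).2
      rwa [inv_inv]
    · have h1 := (iha k hk).1
      rwa [inv_inv]

theorem exists_components [Finite V] (H : Subgroup (V ≃ₗ[ZMod p] V)) (hopp : HasOpp H)
    (hgen : H = Subgroup.closure (rootElems H)) :
    ∃ (n : ℕ) (K : Fin n → Subgroup (V ≃ₗ[ZMod p] V)),
      (∀ j, K j ≤ H ∧ ((K j).subgroupOf H).Normal ∧ HasOpp (K j) ∧ Conn (K j) ∧
        K j = Subgroup.closure (rootElems (K j)) ∧ ∃ a φ, Root (K j) a φ) ∧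
      (⨆ j, K j) = H ∧
      (∀ j j', j ≠ j' → ∀ a φ b ψ, Root (K j) a φ → Root (K j') b ψ → ψ a = 0 ∧ φ b = 0) ∧
      (∀ a φ, Root H a φ → ∃ j, Root (K j) a φ) := by
  classical
  haveI : Finite (Dual (ZMod p) V) :=
    Finite.of_injective (fun f : Dual (ZMod p) V => (f : V → ZMod p)) DFunLike.coe_injective
  haveI : Finite (RT H) := inferInstance
  haveI : Finite (Quotient (compSetoid H)) := inferInstance
  let e := Finite.equivFin (Quotient (compSetoid H))
  have hchar : ∀ (q : Quotient (compSetoid H)) (a : V) (φ : Dual (ZMod p) V),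
      Root (KK H q) a φ ↔
        ∃ h : Root H a φ, Quotient.mk (compSetoid H) ⟨(a, φ), h⟩ = q := by
    intro q a φ
    constructor
    · intro h
      exact ⟨root_mono (KK_le H q) h, class_of_root_KK hopp h⟩
    · rintro ⟨hH, hcl⟩
      rw [← hcl]
      exact root_KK_of H ⟨(a, φ), hH⟩
  refine ⟨Nat.card (Quotient (compSetoid H)), fun j => KK H (e.symm j), ?_, ?_, ?_, ?_⟩
  · intro j
    set q := e.symm j with hq
    refine ⟨KK_le H q, ?_, ?_, ?_, ?_, ?_⟩
    · constructor
      intro n hn g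
      rw [Subgroup.mem_subgroupOf] at hn ⊢
      have h1 := (conj_mem hgen (q := q) g.1 g.2 n.1 hn).1
      simpa using h1
    · intro a φ h
      obtain ⟨hH, hcl⟩ := (hchar q a φ).1 h
      obtain ⟨b, ψ, hbψ, h1, h2⟩ := hopp a φ hH
      refine ⟨b, ψ, (hchar q b ψ).2 ⟨hbψ, ?_⟩, h1, h2⟩
      rw [← hcl]
      refine Quotient.sound ?_
      change Relation.ReflTransGen (Adj H) (b, ψ) (a, φ)
      exact Relation.ReflTransGen.single ⟨hbψ, hH, Or.inl h2⟩
    · intro r s hr hs
      obtain ⟨hrH, hrq⟩ := (hchar q r.1 r.2).1 hr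
      obtain ⟨hsH, hsq⟩ := (hchar q s.1 s.2).1 hs
      have hrs : Relation.ReflTransGen (Adj H) r s := Quotient.exact (hrq.trans hsq.symm)
      have key : ∀ y, Relation.ReflTransGen (Adj H) r y →
          Relation.ReflTransGen (Adj (KK H q)) r y := by
        intro y hy
        induction hy with
        | refl => exact Relation.ReflTransGen.refl
        | @tail y z hxy hyz ih =>
          refine ih.tail ⟨?_, ?_, hyz.2.2⟩
          · refine (hchar q y.1 y.2).2 ⟨hyz.1, ?_⟩
            rw [← hrq]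
            refine Quotient.sound ?_
            change Relation.ReflTransGen (Adj H) (y.1, y.2) (r.1, r.2)
            exact rtg_symm H hxy
          · refine (hchar q z.1 z.2).2 ⟨hyz.2.1, ?_⟩
            rw [← hrq]
            refine Quotient.sound ?_
            change Relation.ReflTransGen (Adj H) (z.1, z.2) (r.1, r.2)
            exact rtg_symm H (hxy.tail hyz)
      exact key s hrs
    · have h1 : rootElems (KK H q) = gens H q := by
        ext g
        constructor
        · rintro ⟨a, φ, hr, hg⟩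
          obtain ⟨hH, hcl⟩ := (hchar q a φ).1 hr
          exact ⟨⟨(a, φ), hH⟩, hcl, hg⟩
        · rintro ⟨r, hr, hg⟩
          exact ⟨r.1.1, r.1.2, (hchar q r.1.1 r.1.2).2 ⟨r.2, hr⟩, hg⟩
      rw [h1]
      rfl
    · obtain ⟨r, hr⟩ := Quotient.exists_rep q
      exact ⟨r.1.1, r.1.2, (hchar q _ _).2 ⟨r.2, hr⟩⟩
  · apply le_antisymm
    · exact iSup_le fun j => KK_le H _
    · conv_lhs => rw [hgen]
      rw [Subgroup.closure_le]
      rintro g ⟨a, φ, hr, hg⟩
      have h1 : g ∈ KK H (e.symm (e (Quotient.mk (compSetoid H) ⟨(a, φ), hr⟩))) := by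
        rw [Equiv.symm_apply_apply]
        exact Subgroup.subset_closure ⟨⟨(a, φ), hr⟩, rfl, hg⟩
      exact Subgroup.mem_iSup_of_mem (e (Quotient.mk (compSetoid H) ⟨(a, φ), hr⟩)) h1
  · intro j j' hjj a φ b ψ hr hs
    have c1 := class_of_root_KK hopp hr
    have c2 := class_of_root_KK hopp hs
    by_contra hcon
    apply hjj
    have h1 : e.symm j = e.symm j' := by
      rw [← c1, ← c2]
      refine Quotient.sound ?_
      change Relation.ReflTransGen (Adj H) (a, φ) (b, ψ)
      refine Relation.ReflTransGen.single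
        ⟨root_mono (KK_le H _) hr, root_mono (KK_le H _) hs, ?_⟩
      by_contra h
      push_neg at h
      exact hcon h
    exact e.symm.injective h1
  · intro a φ hr
    refine ⟨e (Quotient.mk (compSetoid H) ⟨(a, φ), hr⟩), ?_⟩
    have h1 := root_KK_of H ⟨(a, φ), hr⟩
    have h2 : e.symm (e (Quotient.mk (compSetoid H) ⟨(a, φ), hr⟩)) =
        Quotient.mk (compSetoid H) ⟨(a, φ), hr⟩ := Equiv.symm_apply_apply _ _
    change Root (KK H (e.symm (e (Quotient.mk (compSetoid H) ⟨(a, φ), hr⟩)))) a φ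
    rw [h2]
    exact h1

end Cfsg.Agent.H32.McL
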