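import Mathlib
import Cfsg.Prelude.Def_Characters
import Cfsg.Prelude.Def_Transfer
import Cfsg.Agent.S4444
import Cfsg.Agent.H92.PPrimeKer
import Cfsg.Agent.H82.Irr
import Cfsg.Agent.H82.IndDeg
import Cfsg.Agent.Lib.ItoConv
import Cfsg.Agent.H79.Reynolds
import Cfsg.Agent.H32.BrolGar
import Cfsg.Agent.H32.DegP
import Cfsg.Agent.H32.LinAb
import Cfsg.Agent.H32.GalProd
import Cfsg.Agent.H2.Tate
import Cfsg.Agent.H53.PRes
import Cfsg.Agent.H3.PGroup

/-!
# Normal complements of Sylow normalizers and extension of `p'`-degree characters (helper32)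

* `nc_frattini` : Frattini argument, `N(Q) ≤ H`, `Q ≤ H` gives `N(H) ≤ H`;
* `nc_abelian_selfnorm` : abelian self-normalizing Sylow `p`-subgroup: every irreducible
  character of degree prime to `p` is linear;
* `nc_selfnorm_linear` : self-normalizing Sylow `p`-subgroup `Q`, `ψ` of degree prime to `p` with
  `Q' ≤ ker ψ` is linear;
* `nc_pprime_of_comm` : normal subgroup of index prime to `p` whose derived subgroup is in the
  kernel of `θ` forces `p ∤ θ(1)`;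
* `nc_linear_residual`, `nc_mem_commutator`.
-/

set_option autoImplicit false
set_option linter.style.haveILetI false

namespace Cfsg.Agent.H32

open Cfsg Cfsg.Agent.H4 Cfsg.Agent.H82 Cfsg.Agent.Clifford
open scoped ComplexConjugate commutatorElement

universe u

/-- Frattini argument: a subgroup containing the normalizer of a Sylow subgroup is
self-normalizing. -/
theorem nc_frattini {X : Type u} [Group X] [Finite X] {p : ℕ} [Fact p.Prime] (Q : Sylow p X)
    (H : Subgroup X) (hQH : (Q : Subgroup X) ≤ H)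
    (hN : Subgroup.normalizer ((Q : Subgroup X) : Set X) ≤ H) :
    Subgroup.normalizer (H : Set X) ≤ H := by
  intro g hg
  have hle : ((g • Q : Sylow p X) : Subgroup X) ≤ H := by
    intro x hx
    rw [Sylow.coe_subgroup_smul] at hx
    obtain ⟨q, hq, rfl⟩ := (Subgroup.mem_smul_pointwise_iff_exists _ _ _).mp hx
    have := (Subgroup.mem_normalizer_iff.mp hg q).mp (hQH hq)
    simpa [MulAut.smul_def] using this
  obtain ⟨h, hh⟩ := MulAction.exists_smul_eq ↥H ((g • Q).subtype hle) (Q.subtype hQH)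
  rw [Sylow.smul_subtype hle h] at hh
  have h2 : h • (g • Q) = Q := Sylow.subtype_injective hh
  have h3 : ((h : X) * g) • Q = Q := by rw [mul_smul]; exact h2
  have h4 : (h : X) * g ∈ Subgroup.normalizer ((Q : Subgroup X) : Set X) :=
    Sylow.smul_eq_iff_mem_normalizer.mp h3
  have h5 := hN h4
  have h6 : g = (h : X)⁻¹ * ((h : X) * g) := by group
  rw [h6]
  exact H.mul_mem (H.inv_mem h.2) h5

/-- If a Sylow `p`-subgroup is abelian and self-normalizing, every irreducible character of degree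
prime to `p` is linear. -/
theorem nc_abelian_selfnorm {X : Type u} [Group X] [Finite X] {p : ℕ} [Fact p.Prime]
    (Q : Sylow p X) (hab : ∀ a ∈ (Q : Subgroup X), ∀ b ∈ (Q : Subgroup X), a * b = b * a)
    (hN : Subgroup.normalizer ((Q : Subgroup X) : Set X) ≤ Q) (ψ : IrrCharacter X)
    (hp : ¬ p ∣ charDegree ψ.1) : ψ.1 1 = 1 := by
  classical
  haveI : Fintype X := Fintype.ofFinite X
  have hGl : Cfsg.Agent.H92.GlaubP X := fun G₀ S _ hnorm hcop p hp hS C _ hC hCG =>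
    Cfsg.Agent.S4444.result G₀ S hnorm hcop p hp hS C hC hCG
  have hP : Subgroup.normalizer ((Q : Subgroup X) : Set X) ≤
      Subgroup.centralizer ((Q : Subgroup X) : Set X) := by
    intro g hg
    rw [Subgroup.mem_centralizer_iff]
    intro q hq
    exact hab q hq g (hN hg)
  obtain ⟨f, hf⟩ : ∃ f : X →* ↥(Q : Subgroup X), f = MonoidHom.transferSylow Q hP := ⟨_, rfl⟩
  obtain ⟨Y, hY⟩ : ∃ Y : Subgroup X, Y = f.ker := ⟨_, rfl⟩
  haveI hYn : Y.Normal := by rw [hY]; infer_instance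
  have hcompl : Subgroup.IsComplement' Y (Q : Subgroup X) := by
    rw [hY, hf]; exact MonoidHom.ker_transferSylow_isComplement' Q hP
  have hCY : Y ⊓ Subgroup.centralizer ((Q : Subgroup X) : Set X) = ⊥ := by
    rw [eq_bot_iff]
    rintro c ⟨hcY, hcC⟩
    have hcQ : c ∈ (Q : Subgroup X) := hN (Subgroup.centralizer_le_normalizer _ hcC)
    rw [Subgroup.mem_bot]
    exact (Subgroup.disjoint_def.mp hcompl.disjoint) hcY hcQ
  have hle := Cfsg.Agent.H92.normalCore_le_kerPPrime hGl Q Y hCY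
  have hYle : ∀ y ∈ Y, ψ.1 y = ψ.1 1 := by
    intro y hy
    have h1 : y ∈ (Y ⊔ ⁅(Q : Subgroup X), (Q : Subgroup X)⁆).normalCore :=
      (Subgroup.normal_le_normalCore.mpr le_sup_left) hy
    exact (Cfsg.Agent.H92.mem_kerPPrime.mp (hle h1)) ψ hp
  have hcomm : ∀ a b : X, a * b * a⁻¹ * b⁻¹ ∈ Y := by
    intro a b
    rw [hY, MonoidHom.mem_ker]
    have h1 : f a * f b = f b * f a := Subtype.ext (hab _ (f a).2 _ (f b).2)
    rw [map_mul, map_mul, map_mul, map_inv, map_inv, h1]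
    group
  obtain ⟨ψ', hψ'⟩ := exists_deflate Y ψ hYle
  have hA : ∀ a b : X ⧸ Y, a * b = b * a := by
    intro a b
    obtain ⟨a, rfl⟩ := QuotientGroup.mk_surjective a
    obtain ⟨b, rfl⟩ := QuotientGroup.mk_surjective b
    rw [← QuotientGroup.mk_mul, ← QuotientGroup.mk_mul, QuotientGroup.eq]
    have h1 := hcomm b⁻¹ a⁻¹
    have h2 : (a * b)⁻¹ * (b * a) = b⁻¹ * a⁻¹ * b⁻¹⁻¹ * a⁻¹⁻¹ := by group
    rw [h2]
    exact h1
  have h1 := (irr_linear_of_comm hA ψ'.2).1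
  rw [← hψ', inflate_apply, QuotientGroup.mk_one]
  exact h1

/-- If a Sylow `p`-subgroup `Q` is self-normalizing and `ψ` is irreducible of degree prime to `p`
with the commutators of `Q` in its kernel, then `ψ` is linear. -/
theorem nc_selfnorm_linear {X : Type u} [Group X] [Finite X] {p : ℕ} [Fact p.Prime]
    (Q : Sylow p X) (hN : Subgroup.normalizer ((Q : Subgroup X) : Set X) ≤ Q)
    (ψ : IrrCharacter X) (hp : ¬ p ∣ charDegree ψ.1)
    (hker : ∀ a ∈ (Q : Subgroup X), ∀ b ∈ (Q : Subgroup X),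
      ψ.1 (a * b * a⁻¹ * b⁻¹) = ψ.1 1) : ψ.1 1 = 1 := by
  obtain ⟨M, hM⟩ : ∃ M : Subgroup X, M = irrKer ψ := ⟨_, rfl⟩
  haveI : M.Normal := by rw [hM]; infer_instance
  obtain ⟨ψ', hψ'⟩ := exists_deflate M ψ (fun x hx => by rw [hM] at hx; exact hx)
  have hsurj := QuotientGroup.mk'_surjective M
  obtain ⟨Q', hQ'⟩ : ∃ Q' : Sylow p (X ⧸ M),
      (Q' : Subgroup (X ⧸ M)) = (Q : Subgroup X).map (QuotientGroup.mk' M) :=
    ⟨Q.mapSurjective hsurj, Sylow.coe_mapSurjective hsurj Q⟩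
  have hab : ∀ a ∈ (Q' : Subgroup (X ⧸ M)), ∀ b ∈ (Q' : Subgroup (X ⧸ M)), a * b = b * a := by
    intro a ha b hb
    rw [hQ'] at ha hb
    obtain ⟨a, haQ, rfl⟩ := ha
    obtain ⟨b, hbQ, rfl⟩ := hb
    show (QuotientGroup.mk a : X ⧸ M) * QuotientGroup.mk b =
      QuotientGroup.mk b * QuotientGroup.mk a
    rw [← QuotientGroup.mk_mul, ← QuotientGroup.mk_mul, QuotientGroup.eq]
    have h := hker b⁻¹ (inv_mem hbQ) a⁻¹ (inv_mem haQ)
    rw [hM, mem_irrKer]
    have h2 : (a * b)⁻¹ * (b * a) = b⁻¹ * a⁻¹ * b⁻¹⁻¹ * a⁻¹⁻¹ := by group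
    rw [h2]
    exact h
  have hN' : Subgroup.normalizer ((Q' : Subgroup (X ⧸ M)) : Set (X ⧸ M)) ≤ Q' := by
    intro z hz
    obtain ⟨g, rfl⟩ := QuotientGroup.mk_surjective z
    have h1 : g ∈ (Subgroup.normalizer ((Q' : Subgroup (X ⧸ M)) : Set (X ⧸ M))).comap
        (QuotientGroup.mk' M) := hz
    rw [Subgroup.comap_normalizer_eq_of_surjective _ hsurj, hQ', Subgroup.comap_map_eq,
      QuotientGroup.ker_mk'] at h1
    have h2 := nc_frattini Q ((Q : Subgroup X) ⊔ M) le_sup_left (hN.trans le_sup_left) h1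
    rw [hQ']
    have h3 : (QuotientGroup.mk' M) g ∈ ((Q : Subgroup X) ⊔ M).map (QuotientGroup.mk' M) :=
      Subgroup.mem_map_of_mem _ h2
    rw [Subgroup.map_sup, QuotientGroup.map_mk'_self M, sup_bot_eq] at h3
    exact h3
  have hp' : ¬ p ∣ charDegree ψ'.1 := by rw [← charDegree_inflate M ψ', hψ']; exact hp
  have h1 := nc_abelian_selfnorm Q' hab hN' ψ' hp'
  rw [← hψ', inflate_apply, QuotientGroup.mk_one]
  exact h1

/-- If `P₀` is normal of index prime to `p` and the commutators of `P₀` lie in the kernel of the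
irreducible character `θ`, then `p ∤ θ(1)` (Itô). -/
theorem nc_pprime_of_comm {N : Type u} [Group N] [Finite N] {p : ℕ} (P₀ : Subgroup N)
    [P₀.Normal] (hidx : ¬ p ∣ P₀.index) (θ : IrrCharacter N)
    (hc : ∀ n ∈ ⁅P₀, P₀⁆, θ.1 n = θ.1 1) : ¬ p ∣ charDegree θ.1 := by
  obtain ⟨M, hM⟩ : ∃ M : Subgroup N, M = irrKer θ := ⟨_, rfl⟩
  haveI : M.Normal := by rw [hM]; infer_instance
  obtain ⟨θ', hθ'⟩ := exists_deflate M θ (fun x hx => by rw [hM] at hx; exact hx)
  have hsurj := QuotientGroup.mk'_surjective M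
  haveI : (P₀.map (QuotientGroup.mk' M)).Normal := Subgroup.Normal.map inferInstance _ hsurj
  have hab : ∀ a ∈ P₀.map (QuotientGroup.mk' M), ∀ b ∈ P₀.map (QuotientGroup.mk' M),
      a * b = b * a := by
    rintro _ ⟨a, ha, rfl⟩ _ ⟨b, hb, rfl⟩
    show (QuotientGroup.mk a : N ⧸ M) * QuotientGroup.mk b =
      QuotientGroup.mk b * QuotientGroup.mk a
    rw [← QuotientGroup.mk_mul, ← QuotientGroup.mk_mul, QuotientGroup.eq, hM, mem_irrKer]
    have h := hc ⁅b⁻¹, a⁻¹⁆ (Subgroup.commutator_mem_commutator (inv_mem hb) (inv_mem ha))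
    have h2 : (a * b)⁻¹ * (b * a) = ⁅b⁻¹, a⁻¹⁆ := by
      rw [commutatorElement_def]; group
    rw [h2]
    exact h
  have hidx' : ¬ p ∣ (P₀.map (QuotientGroup.mk' M)).index := fun h =>
    hidx (dvd_trans h (Subgroup.index_map_dvd P₀ hsurj))
  have h3 := Cfsg.Agent.ItoConv.pPrimeDeg_of_normal_abelian (P₀.map (QuotientGroup.mk' M)) hab
    hidx' θ'
  rw [← hθ', charDegree_inflate]
  exact h3

/-- A linear character is trivial on the `p`-elements of `O^p`. -/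
theorem nc_linear_residual {L : Type u} [Group L] [Finite L] {p : ℕ} [hp : Fact p.Prime]
    (ψ : IrrCharacter L) (h1 : ψ.1 1 = 1) (x : L) (hx : x ∈ pResidual p L) (k : ℕ)
    (hxk : x ^ (p ^ k) = 1) : ψ.1 x = 1 := by
  obtain ⟨f, hf⟩ : ∃ f : L →* ℂˣ, f = irrLinearHom ψ h1 := ⟨_, rfl⟩
  have key : ∀ y ∈ pResidual p L, ∃ m : ℕ, Nat.Coprime m p ∧ (f y) ^ m = 1 := by
    intro y hy
    unfold pResidual at hy
    induction hy using Subgroup.closure_induction with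
    | mem g hg => exact ⟨orderOf g, hg, by rw [← map_pow, pow_orderOf_eq_one, map_one]⟩
    | one => exact ⟨1, Nat.coprime_one_left p, by simp⟩
    | mul a b _ _ iha ihb =>
      obtain ⟨m, hm, hma⟩ := iha
      obtain ⟨n, hn, hnb⟩ := ihb
      refine ⟨m * n, Nat.Coprime.mul_left hm hn, ?_⟩
      rw [map_mul, mul_pow, pow_mul, hma, one_pow, mul_comm m n, pow_mul, hnb, one_pow, one_mul]
    | inv a _ iha =>
      obtain ⟨m, hm, hma⟩ := iha
      exact ⟨m, hm, by rw [map_inv, inv_pow, hma, inv_one]⟩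
  obtain ⟨m, hm, hfm⟩ := key x hx
  have hfk : (f x) ^ (p ^ k) = 1 := by rw [← map_pow, hxk, map_one]
  have hcop : Nat.gcd m (p ^ k) = 1 := Nat.Coprime.pow_right k hm
  have h2 : f x = 1 := by
    have h3 := pow_gcd_eq_one.mpr ⟨hfm, hfk⟩
    rw [hcop, pow_one] at h3
    exact h3
  rw [← irrLinearHom_apply ψ h1 x, ← hf, h2]
  rfl

/-- An element on which every linear character is trivial lies in the derived subgroup. -/
theorem nc_mem_commutator {P : Type u} [Group P] [Finite P] (x : P)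
    (h : ∀ lam : IrrCharacter P, lam.1 1 = 1 → lam.1 x = 1) : x ∈ commutator P := by
  by_contra hx
  have hne : (QuotientGroup.mk x : P ⧸ commutator P) ≠ 1 := by
    rw [Ne, QuotientGroup.eq_one_iff]; exact hx
  obtain ⟨χ, hχ, -⟩ := exists_irr_two_ne hne hne
  have hA : ∀ a b : P ⧸ commutator P, a * b = b * a :=
    fun a b => @mul_comm (Abelianization P) _ a b
  have h1 := (irr_linear_of_comm hA χ.2).1
  have h2 := h (inflate (commutator P) χ) (by rw [inflate_apply, QuotientGroup.mk_one]; exact h1)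
  rw [inflate_apply] at h2
  exact hχ (h2.trans h1.symm)

/-- The index of a Sylow subgroup in a subgroup containing it is prime to `p`. -/
theorem nc_not_dvd_index_subgroupOf {G : Type u} [Group G] [Finite G] {p : ℕ} [Fact p.Prime]
    (P : Sylow p G) (N : Subgroup G) (hPN : (P : Subgroup G) ≤ N) :
    ¬ p ∣ ((P : Subgroup G).subgroupOf N).index := by
  intro h
  have h1 : (P : Subgroup G).relIndex N * N.index = (P : Subgroup G).index :=
    Subgroup.relIndex_mul_index hPN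
  exact P.not_dvd_index (h1 ▸ Dvd.dvd.mul_right h _)

/-- Step 1: if every irreducible character of `N = N_G(P)` of degree prime to `p` extends to `G`,
then the normal closure of `P` meets `N` in `P`. -/
theorem nc_step1 {G : Type u} [Group G] [Finite G] (p : ℕ) [Fact p.Prime] (P : Sylow p G)
    (N : Subgroup G) (hN : N = Subgroup.normalizer ((P : Subgroup G) : Set G))
    (hyp : ∀ θ : IrrCharacter ↥N, ¬ p ∣ charDegree θ.1 →
      ∃ χ : IrrCharacter G, ∀ x : ↥N, χ.1 x = θ.1 x) :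
    Subgroup.normalClosure ((P : Subgroup G) : Set G) ⊓ N ≤ P := by
  classical
  have hPN : (P : Subgroup G) ≤ N := by rw [hN]; exact Subgroup.le_normalizer
  haveI hP₀n : ((P : Subgroup G).subgroupOf N).Normal := by
    subst hN; exact Subgroup.normal_in_normalizer
  rintro x ⟨hxL, hxN⟩
  by_contra hxP
  obtain ⟨P₀, hP₀⟩ : ∃ P₀ : Subgroup ↥N, P₀ = (P : Subgroup G).subgroupOf N := ⟨_, rfl⟩
  haveI : P₀.Normal := by rw [hP₀]; exact hP₀n
  have hne : (QuotientGroup.mk (⟨x, hxN⟩ : N) : N ⧸ P₀) ≠ 1 := by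
    rw [Ne, QuotientGroup.eq_one_iff, hP₀, Subgroup.mem_subgroupOf]; exact hxP
  obtain ⟨θ', hθ', -⟩ := exists_irr_two_ne hne hne
  have hdeg : ¬ p ∣ charDegree (inflate P₀ θ').1 := by
    rw [charDegree_inflate]
    intro hdvd
    have h1 := charDegree_dvd_card θ'
    have h2 : Nat.card (N ⧸ P₀) = P₀.index := (Subgroup.index_eq_card P₀).symm
    have h3 : ¬ p ∣ P₀.index := by rw [hP₀]; exact nc_not_dvd_index_subgroupOf P N hPN
    exact h3 (h2 ▸ dvd_trans hdvd h1)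
  obtain ⟨χ, hχ⟩ := hyp (inflate P₀ θ') hdeg
  have h1' : χ.1 1 = (inflate P₀ θ').1 1 := hχ 1
  have hPker : ((P : Subgroup G) : Set G) ⊆ irrKer χ := by
    intro y hy
    rw [SetLike.mem_coe, mem_irrKer]
    have h1 : χ.1 y = (inflate P₀ θ').1 ⟨y, hPN hy⟩ := hχ ⟨y, hPN hy⟩
    rw [inflate_mem P₀ θ' ⟨y, hPN hy⟩ (by rw [hP₀, Subgroup.mem_subgroupOf]; exact hy)] at h1
    exact h1.trans h1'.symm
  have hLker : Subgroup.normalClosure ((P : Subgroup G) : Set G) ≤ irrKer χ :=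
    Subgroup.normalClosure_le_normal hPker
  have h3 := hLker hxL
  rw [mem_irrKer] at h3
  have h4 : χ.1 x = (inflate P₀ θ').1 ⟨x, hxN⟩ := hχ ⟨x, hxN⟩
  apply hθ'
  have h5 : (inflate P₀ θ').1 ⟨x, hxN⟩ = (inflate P₀ θ').1 1 := by rw [← h4, ← h1']; exact h3
  rw [inflate_apply, inflate_apply, QuotientGroup.mk_one] at h5
  exact h5

/-- Step 4: under the extension hypothesis, with `L ⊴ G` containing `P` and `L ∩ N ≤ P`, every
linear character of `P` extends to a linear character of `L`. -/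
theorem nc_extend {G : Type u} [Group G] [Finite G] (p : ℕ) [Fact p.Prime] (P : Sylow p G)
    (N : Subgroup G) (hN : N = Subgroup.normalizer ((P : Subgroup G) : Set G))
    (hyp : ∀ θ : IrrCharacter ↥N, ¬ p ∣ charDegree θ.1 →
      ∃ χ : IrrCharacter G, ∀ x : ↥N, χ.1 x = θ.1 x)
    (L : Subgroup G) [hLn : L.Normal] (hPL : (P : Subgroup G) ≤ L) (hLN : L ⊓ N ≤ P)
    (P₁ : Subgroup ↥L) (hP₁ : P₁ = (P : Subgroup G).subgroupOf L)
    (lam : IrrCharacter ↥P₁) (hlam : lam.1 1 = 1) :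
    ∃ ψ : IrrCharacter ↥L, ψ.1 1 = 1 ∧ ∀ n : ↥P₁, ψ.1 (n : L) = lam.1 n := by
  classical
  haveI : Fintype G := Fintype.ofFinite G
  haveI : Fintype ↥N := Fintype.ofFinite _
  haveI : Fintype ↥L := Fintype.ofFinite _
  haveI : Fintype ↥P₁ := Fintype.ofFinite _
  have hPN : (P : Subgroup G) ≤ N := by rw [hN]; exact Subgroup.le_normalizer
  haveI hP₀n : ((P : Subgroup G).subgroupOf N).Normal := by
    subst hN; exact Subgroup.normal_in_normalizer
  obtain ⟨P₀, hP₀⟩ : ∃ P₀ : Subgroup ↥N, P₀ = (P : Subgroup G).subgroupOf N := ⟨_, rfl⟩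
  haveI : P₀.Normal := by rw [hP₀]; exact hP₀n
  haveI : Fintype ↥P₀ := Fintype.ofFinite _
  have hmem0' : ∀ y : ↥N, y ∈ P₀ → (y : G) ∈ (P : Subgroup G) := by
    intro y hy
    rw [hP₀, Subgroup.mem_subgroupOf] at hy
    exact hy
  have hmem1' : ∀ y : ↥L, y ∈ P₁ → (y : G) ∈ (P : Subgroup G) := by
    intro y hy
    rw [hP₁, Subgroup.mem_subgroupOf] at hy
    exact hy
  have hmem0 : ∀ a : ↥P₀, ((a : ↥N) : G) ∈ (P : Subgroup G) := fun a => hmem0' a a.2
  have hmem1 : ∀ b : ↥P₁, ((b : ↥L) : G) ∈ (P : Subgroup G) := fun b => hmem1' b b.2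
  let e : ↥P₀ ≃* ↥P₁ :=
    { toFun := fun a => ⟨⟨((a : ↥N) : G), hPL (hmem0 a)⟩, by
        rw [hP₁, Subgroup.mem_subgroupOf]; exact hmem0 a⟩
      invFun := fun b => ⟨⟨((b : ↥L) : G), hPN (hmem1 b)⟩, by
        rw [hP₀, Subgroup.mem_subgroupOf]; exact hmem1 b⟩
      left_inv := fun a => rfl
      right_inv := fun b => rfl
      map_mul' := fun a b => rfl }
  have hecoe : ∀ a : ↥P₀, (((e a : ↥P₁) : ↥L) : G) = ((a : ↥N) : G) := fun a => rfl
  obtain ⟨lamN, hlamNdef⟩ : ∃ lamN : ↥P₀ → ℂ, lamN = fun a => lam.1 (e a) := ⟨_, rfl⟩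
  have hlamN : IsIrrCharacter ↥P₀ lamN := by
    rw [hlamNdef]; exact isIrrCharacter_comp_equiv e lam.2
  have hlamN1 : lamN 1 = 1 := by
    rw [hlamNdef]; show lam.1 (e 1) = 1; rw [map_one]; exact hlam
  obtain ⟨θ, hθ, hne⟩ := Cfsg.Agent.ItoConv.exists_irr_over P₀ hlamN
  have hcomm : ∀ n ∈ ⁅P₀, P₀⁆, θ n = θ 1 :=
    Cfsg.Agent.H79.commutator_le_ker_of_linear_constituent P₀ ⟨θ, hθ⟩ ⟨lamN, hlamN⟩ hlamN1 hne
  have hidx : ¬ p ∣ P₀.index := by rw [hP₀]; exact nc_not_dvd_index_subgroupOf P N hPN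
  have hdeg : ¬ p ∣ charDegree θ := nc_pprime_of_comm P₀ hidx ⟨θ, hθ⟩ hcomm
  obtain ⟨χ, hχ⟩ := hyp ⟨θ, hθ⟩ hdeg
  have hχ1 : χ.1 1 = θ 1 := hχ 1
  have hχL : IsCharacter ↥L (fun t : ↥L => χ.1 t) :=
    isCharacter_restrict L (isCharacter_of_isIrrCharacter χ.2)
  obtain ⟨a, c, ha, hc, hac⟩ := classInner_comp_expand_nat (A := fun t : ↥L => χ.1 t) hχL
    (P₁.subtype) (θ := lam.1) (isCharacter_of_isIrrCharacter lam.2)
  have hlhs : classInner (fun n : ↥P₁ => (fun t : ↥L => χ.1 t) (P₁.subtype n)) lam.1 ≠ 0 := by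
    have h1 := classInner_comp_equiv e (fun n : ↥P₁ => (fun t : ↥L => χ.1 t) (P₁.subtype n)) lam.1
    rw [← h1]
    have h2 : (fun a : ↥P₀ => (fun n : ↥P₁ => (fun t : ↥L => χ.1 t) (P₁.subtype n)) (e a)) =
        fun n : ↥P₀ => θ n := by
      funext a
      exact hχ (a : ↥N)
    rw [h2, ← hlamNdef]
    exact hne
  have hex : ∃ ψ' : IrrCharacter ↥L, a ψ' * c ψ' ≠ 0 := by
    by_contra hcon
    push Not at hcon
    apply hlhs
    rw [hac, finsum_eq_zero_of_forall_eq_zero hcon]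
    simp
  obtain ⟨ψ', hψ'⟩ := hex
  have ha0 : a ψ' ≠ 0 := fun h => hψ' (by rw [h, zero_mul])
  have hc0 : c ψ' ≠ 0 := fun h => hψ' (by rw [h, mul_zero])
  have hA : classInner (fun t : ↥L => χ.1 t) ψ'.1 ≠ 0 := by
    rw [ha ψ']; exact_mod_cast ha0
  have hC : classInner (fun n : ↥P₁ => ψ'.1 (n : ↥L)) lam.1 ≠ 0 := by
    have := hc ψ'
    rw [show (fun n : ↥P₁ => ψ'.1 (P₁.subtype n)) = fun n : ↥P₁ => ψ'.1 (n : ↥L) from rfl] at this
    rw [this]; exact_mod_cast hc0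
  -- degree of `ψ'`
  have hp' : ¬ p ∣ charDegree ψ'.1 := by
    obtain ⟨f, hf⟩ := Cfsg.Agent.ItoConv.degree_over L ψ' χ hA
    intro hdvd
    apply hdeg
    have h1 : charDegree χ.1 = charDegree θ := by
      show ⌊(χ.1 1).re⌋₊ = ⌊(θ 1).re⌋₊
      rw [hχ1]
    rw [← h1, hf]
    exact Dvd.dvd.mul_left hdvd _
  -- the Sylow subgroup of `L`
  obtain ⟨Q, hQ⟩ : ∃ Q : Sylow p ↥L, (Q : Subgroup ↥L) = P₁ := ⟨P.subtype hPL, by rw [hP₁]; rfl⟩
  have hNQ : Subgroup.normalizer ((Q : Subgroup ↥L) : Set ↥L) ≤ Q := by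
    rw [hQ, hP₁, ← Subgroup.subgroupOf_normalizer_eq hPL]
    intro g hg
    rw [Subgroup.mem_subgroupOf] at hg ⊢
    rw [← hN] at hg
    exact hLN ⟨g.2, hg⟩
  have hker : ∀ a ∈ (Q : Subgroup ↥L), ∀ b ∈ (Q : Subgroup ↥L),
      ψ'.1 (a * b * a⁻¹ * b⁻¹) = ψ'.1 1 := by
    intro a ha b hb
    rw [hQ, hP₁, Subgroup.mem_subgroupOf] at ha hb
    refine ker_of_constituent hχL ψ'.2 hA ?_
    show χ.1 ((a * b * a⁻¹ * b⁻¹ : ↥L) : G) = χ.1 ((1 : ↥L) : G)
    have ha0 : (⟨(a : G), hPN ha⟩ : ↥N) ∈ P₀ := by rw [hP₀, Subgroup.mem_subgroupOf]; exact ha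
    have hb0 : (⟨(b : G), hPN hb⟩ : ↥N) ∈ P₀ := by rw [hP₀, Subgroup.mem_subgroupOf]; exact hb
    have h1 := hcomm _ (Subgroup.commutator_mem_commutator ha0 hb0)
    have h2 : χ.1 ((⁅(⟨(a : G), hPN ha⟩ : ↥N), (⟨(b : G), hPN hb⟩ : ↥N)⁆ : ↥N) : G) =
        θ ⁅(⟨(a : G), hPN ha⟩ : ↥N), (⟨(b : G), hPN hb⟩ : ↥N)⁆ := hχ _
    rw [h1, ← hχ1] at h2
    exact h2
  have hlin : ψ'.1 1 = 1 := nc_selfnorm_linear Q hNQ ψ' hp' hker
  refine ⟨ψ', hlin, ?_⟩
  have hirr : IsIrrCharacter ↥P₁ (fun n : ↥P₁ => ψ'.1 (n : ↥L)) :=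
    isIrrCharacter_of_hom ((irrLinearHom ψ' hlin).comp P₁.subtype)
  have heq := eq_of_classInner_ne_zero hirr lam.2 hC
  intro n
  exact congrFun heq n

set_option maxHeartbeats 1000000 in
/-- If every irreducible character of `N = N_G(P)` of degree prime to `p` extends to `G`, then
`N` has a normal complement in `G`. -/
theorem nc_forward {G : Type u} [Group G] [Finite G] (p : ℕ) [Fact p.Prime] (P : Sylow p G)
    (N : Subgroup G) (hN : N = Subgroup.normalizer ((P : Subgroup G) : Set G))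
    (hyp : ∀ θ : IrrCharacter ↥N, ¬ p ∣ charDegree θ.1 →
      ∃ χ : IrrCharacter G, ∀ x : ↥N, χ.1 x = θ.1 x) :
    ∃ K : Subgroup G, K.Normal ∧ K ⊔ N = ⊤ ∧ K ⊓ N = ⊥ := by
  classical
  obtain ⟨L, hL⟩ : ∃ L : Subgroup G, L = Subgroup.normalClosure ((P : Subgroup G) : Set G) :=
    ⟨_, rfl⟩
  haveI hLn : L.Normal := by rw [hL]; exact Subgroup.normalClosure_normal
  have hPL : (P : Subgroup G) ≤ L := by rw [hL]; exact Subgroup.subset_normalClosure
  have hLN : L ⊓ N ≤ P := by rw [hL]; exact nc_step1 p P N hN hyp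
  have hPN : (P : Subgroup G) ≤ N := by rw [hN]; exact Subgroup.le_normalizer
  obtain ⟨Q, hQ⟩ : ∃ Q : Sylow p ↥L, (Q : Subgroup ↥L) = (P : Subgroup G).subgroupOf L :=
    ⟨P.subtype hPL, rfl⟩
  have hT : pResidual p ↥L ⊓ (Q : Subgroup ↥L) ≤
      (frattini ↥(Q : Subgroup ↥L)).map (Q : Subgroup ↥L).subtype := by
    rintro x ⟨hxR, hxQ⟩
    have hcomm : (⟨x, hxQ⟩ : ↥(Q : Subgroup ↥L)) ∈ commutator ↥(Q : Subgroup ↥L) := by
      apply nc_mem_commutator
      intro lam hlam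
      obtain ⟨ψ, hψ1, hψ⟩ := nc_extend p P N hN hyp L hPL hLN (Q : Subgroup ↥L) hQ lam hlam
      rw [← hψ ⟨x, hxQ⟩]
      obtain ⟨k, hk⟩ := Q.isPGroup' ⟨x, hxQ⟩
      have hxk : x ^ p ^ k = 1 := by simpa using congrArg Subtype.val hk
      exact nc_linear_residual ψ hψ1 x hxR k hxk
    have hfr := Cfsg.Agent.H3.commutator_le_frattini Q.isPGroup' hcomm
    exact ⟨⟨x, hxQ⟩, hfr, rfl⟩
  have hbot := Cfsg.Agent.H2.tate_sylow Q hT
  refine ⟨(pResidual p ↥L).map L.subtype, ?_, ?_, ?_⟩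
  · haveI := Cfsg.Agent.H53.pResidual_characteristic p ↥L
    exact ConjAct.normal_of_characteristic_of_normal
  · have h1 : pResidual p ↥L ⊔ (Q : Subgroup ↥L) = ⊤ := by
      have hidx1 : (pResidual p ↥L ⊔ (Q : Subgroup ↥L)).index ∣ (pResidual p ↥L).index :=
        Subgroup.index_dvd_of_le le_sup_left
      have hidx2 : (pResidual p ↥L ⊔ (Q : Subgroup ↥L)).index ∣ (Q : Subgroup ↥L).index :=
        Subgroup.index_dvd_of_le le_sup_right
      have hpg := Cfsg.Agent.H53.isPGroup_quotient_pResidual p ↥L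
      obtain ⟨k, hk⟩ := IsPGroup.iff_card.mp hpg
      rw [← Subgroup.index_eq_card] at hk
      have h2 : ¬ p ∣ (pResidual p ↥L ⊔ (Q : Subgroup ↥L)).index := fun h =>
        Q.not_dvd_index (dvd_trans h hidx2)
      rw [hk] at hidx1
      exact Subgroup.index_eq_one.mp
        (Cfsg.Agent.H92.eq_one_of_dvd_pow_of_not_dvd Fact.out hidx1 h2)
    have h2 : ((pResidual p ↥L).map L.subtype) ⊔ (P : Subgroup G) = L := by
      have h := congrArg (Subgroup.map L.subtype) h1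
      rw [Subgroup.map_sup, hQ, Subgroup.map_subgroupOf_eq_of_le hPL, ← MonoidHom.range_eq_map,
        Subgroup.range_subtype] at h
      exact h
    have h3 : N ⊔ L = ⊤ := by
      rw [hN]
      exact Sylow.normalizer_sup_eq_top' P hPL
    rw [eq_top_iff, ← h3]
    refine sup_le le_sup_right ?_
    exact h2.symm.le.trans (sup_le le_sup_left (hPN.trans le_sup_right))
  · rw [eq_bot_iff]
    rintro x ⟨hxK, hxN⟩
    obtain ⟨y, hy, rfl⟩ := hxK
    have hyP : (y : G) ∈ (P : Subgroup G) := hLN ⟨y.2, hxN⟩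
    have hyQ : y ∈ (Q : Subgroup ↥L) := by rw [hQ, Subgroup.mem_subgroupOf]; exact hyP
    have h4 : y ∈ pResidual p ↥L ⊓ (Q : Subgroup ↥L) := ⟨hy, hyQ⟩
    rw [hbot, Subgroup.mem_bot] at h4
    rw [Subgroup.mem_bot, h4]
    rfl

/-- If `N` has a normal complement `K` in `G`, every irreducible character of `N` extends to `G`. -/
theorem nc_backward {G : Type u} [Group G] (N K : Subgroup G) [hK : K.Normal]
    (hsup : K ⊔ N = ⊤) (hinf : K ⊓ N = ⊥) (θ : IrrCharacter ↥N) :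
    ∃ χ : IrrCharacter G, ∀ x : ↥N, χ.1 x = θ.1 x := by
  let f : ↥N →* G ⧸ K := (QuotientGroup.mk' K).comp N.subtype
  have hinj : Function.Injective f := by
    rw [injective_iff_map_eq_one]
    intro a ha
    have h1 : (a : G) ∈ K := (QuotientGroup.eq_one_iff (a : G)).mp ha
    have h2 : (a : G) ∈ K ⊓ N := ⟨h1, a.2⟩
    rw [hinf, Subgroup.mem_bot] at h2
    exact Subtype.ext h2
  have hsurj : Function.Surjective f := by
    intro z
    obtain ⟨g, rfl⟩ := QuotientGroup.mk_surjective z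
    have hg : g ∈ K ⊔ N := by rw [hsup]; trivial
    rw [← SetLike.mem_coe, Subgroup.normal_mul] at hg
    obtain ⟨k, hk, n, hn, rfl⟩ := Set.mem_mul.mp hg
    refine ⟨⟨n, hn⟩, ?_⟩
    show (QuotientGroup.mk n : G ⧸ K) = QuotientGroup.mk (k * n)
    rw [QuotientGroup.mk_mul, (QuotientGroup.eq_one_iff k).mpr hk, one_mul]
  let e : ↥N ≃* G ⧸ K := MulEquiv.ofBijective f ⟨hinj, hsurj⟩
  let F : G →* ↥N := e.symm.toMonoidHom.comp (QuotientGroup.mk' K)
  have hF : Function.Surjective F := e.symm.surjective.comp (QuotientGroup.mk'_surjective K)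
  refine ⟨⟨fun g => θ.1 (F g), isIrrCharacter_comp_surjective F hF θ.2⟩, ?_⟩
  intro x
  show θ.1 (F x) = θ.1 x
  have h1 : F (x : G) = x := by
    show e.symm (QuotientGroup.mk (x : G)) = x
    rw [MulEquiv.symm_apply_eq]
    rfl
  rw [h1]

end Cfsg.Agent.H32
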