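import Mathlib
import Cfsg.Agent.H45.S8Defs1

/-!
# helper32: piece RS-BOREL of S2361 (helper69's project), unfolded form

Every point stabiliser of `²G₂(q)` on `Ω = ²G₂ / B¹` normalises a Sylow 3-subgroup.
-/

set_option autoImplicit false
set_option synthInstance.maxHeartbeats 400000
open Cfsg Cfsg.Lie

namespace Cfsg.Agent.H32.RS

open Cfsg.Agent.H22 Cfsg.Agent.H22.GEx Cfsg.Agent.H22.Ree Cfsg.Agent.H45.S8

theorem borel_raw {K : Type*} [Field K] [Fintype K] [CharP K 3] {e m : ℕ} (C : Ctx K e)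
    (hK : Fintype.card K = 3 ^ (2 * m + 1)) (hcan : CanonG2 K) (hW : WeylG2 K) :
    ∀ x : Om K e, ∃ P : Sylow 3 ↥(twistedG2 K e),
      MulAction.stabilizer ↥(twistedG2 K e) x ≤
        Subgroup.normalizer ((P : Subgroup ↥(twistedG2 K e)) : Set ↥(twistedG2 K e)) := by
  have : Fact (Nat.Prime 3) := ⟨Nat.prime_three⟩
  obtain ⟨P₀, hP₀⟩ := C.exists_sylow_eq_U1 hK hcan hW
  have hBN : ∀ b ∈ B1sub K e, b ∈ Subgroup.normalizer ((P₀ : Subgroup ↥(twistedG2 K e)) :
      Set ↥(twistedG2 K e)) := by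
    intro b hb
    have hb' : (b : GL chevG2.Idx K) ∈ chevG2.borelSubgroup K := by
      rw [Subgroup.mem_subgroupOf] at hb
      exact hb.1
    have hbi' : ((b⁻¹ : ↥(twistedG2 K e)) : GL chevG2.Idx K) ∈ chevG2.borelSubgroup K := by
      rw [Subgroup.coe_inv]
      exact inv_mem hb'
    rw [Subgroup.mem_normalizer_iff]
    intro h
    rw [hP₀, mem_U1sub, mem_U1sub]
    constructor
    · intro hh
      have h1 := C.B_conj_U (b : GL chevG2.Idx K) (h : GL chevG2.Idx K) hb' hh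
      simpa using h1
    · intro hh
      have h1 := C.B_conj_U ((b⁻¹ : ↥(twistedG2 K e)) : GL chevG2.Idx K)
        ((b * h * b⁻¹ : ↥(twistedG2 K e)) : GL chevG2.Idx K) hbi' hh
      have e1 : ((b⁻¹ : ↥(twistedG2 K e)) : GL chevG2.Idx K) *
          ((b * h * b⁻¹ : ↥(twistedG2 K e)) : GL chevG2.Idx K) *
          ((b⁻¹ : ↥(twistedG2 K e)) : GL chevG2.Idx K)⁻¹ = (h : GL chevG2.Idx K) := by
        simp only [Subgroup.coe_mul, Subgroup.coe_inv]
        group
      rw [e1] at h1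
      exact h1
  intro x
  obtain ⟨g, rfl⟩ := QuotientGroup.mk_surjective x
  refine ⟨g • P₀, ?_⟩
  intro s hs
  rw [MulAction.mem_stabilizer_iff] at hs
  have hs' : (QuotientGroup.mk (s * g) : ↥(twistedG2 K e) ⧸ B1sub K e) = QuotientGroup.mk g := hs
  rw [QuotientGroup.eq] at hs'
  have hb : g⁻¹ * s * g ∈ B1sub K e := by
    have h1 := inv_mem hs'
    have e1 : ((s * g)⁻¹ * g)⁻¹ = g⁻¹ * s * g := by group
    rw [e1] at h1
    exact h1
  have hfix : (g⁻¹ * s * g) • P₀ = P₀ := Sylow.smul_eq_iff_mem_normalizer.mpr (hBN _ hb)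
  have key : s • (g • P₀) = g • P₀ := by
    have e2 : s * g = g * (g⁻¹ * s * g) := by group
    rw [← mul_smul, e2, mul_smul, hfix]
  exact Sylow.smul_eq_iff_mem_normalizer.mp key

end Cfsg.Agent.H32.RS
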