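import Mathlib
import Cfsg.Agent.H69.RSDefs1
import Cfsg.Agent.H32.RSBorel

/-!
# helper32: piece RS-BOREL of S2361 (helper69's project), exact form
-/

set_option autoImplicit false
set_option synthInstance.maxHeartbeats 400000
open Cfsg Cfsg.Lie

namespace Cfsg.Agent.H32.RS

open Cfsg.Agent.H22 Cfsg.Agent.H22.GEx Cfsg.Agent.H22.Ree Cfsg.Agent.H45.S8

theorem borel {K : Type*} [Field K] [Fintype K] [CharP K 3] {e m : ℕ} (C : Ctx K e)
    (hK : Fintype.card K = 3 ^ (2 * m + 1)) (hcan : CanonG2 K) (hW : WeylG2 K) :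
    Cfsg.Agent.H69.RS.StBorel K e :=
  borel_raw C hK hcan hW

example {K : Type*} [Field K] [Fintype K] [CharP K 3] {e m : ℕ} (C : Ctx K e)
    (hK : Fintype.card K = 3 ^ (2 * m + 1)) (hcan : CanonG2 K) (hW : WeylG2 K) :
    Cfsg.Agent.H69.RS.StBorel K e := borel C hK hcan hW

end Cfsg.Agent.H32.RS
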