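import Mathlib
import Cfsg.Agent.H69.RSDefs

/-!
# helper32: piece RS-TWO of S2361 (helper69's project)

The 2-case: Sylow 2-subgroups commutative of order 8, `E ⊴ S` a nontrivial 2-group with
`C_S(E) ≤ E`, the `A₄`-case settled: `S` normalises a Sylow 2-subgroup.
-/

set_option autoImplicit false

namespace Cfsg.Agent.H32.RS

open Cfsg.Agent.H69.RS

universe u

theorem two (h1 : StIdxDvd.{u}) (h2 : StIdxOdd.{u}) : StTwo.{u} := by
  intro G _ _ h8 hcomm hA4 E S hES hSN hE hE2 hCS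
  obtain ⟨T, hET⟩ := hE2.exists_le_sylow
  have hT8 := h8 T
  have hEcomm : ∀ x ∈ E, ∀ y ∈ E, x * y = y * x :=
    fun x hx y hy => hcomm T x (hET hx) y (hET hy)
  have hdvd := h1 G E S hES hSN hEcomm hCS
  have hodd := h2 G hcomm E S hES hSN hE2 hCS
  have hEdvd : Nat.card ↥E ∣ 2 ^ 3 := by
    have h := Subgroup.card_dvd_of_le hET
    rw [hT8] at h
    exact h
  have hE1 : Nat.card ↥E ≠ 1 := fun h => hE (Subgroup.eq_bot_of_card_eq E h)
  have hESdvd : Nat.card ↥E ∣ Nat.card ↥S := Subgroup.card_dvd_of_le hES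
  have hSpos : 0 < Nat.card ↥S := Nat.card_pos
  have hTN : (T : Subgroup G) ≤ Subgroup.normalizer ((T : Subgroup G) : Set G) :=
    Subgroup.le_normalizer
  obtain ⟨k, hk, hEk⟩ := (Nat.dvd_prime_pow Nat.prime_two).mp hEdvd
  have hk3 : k = 1 ∨ k = 2 ∨ k = 3 := by
    rcases Nat.eq_zero_or_pos k with h0 | h0
    · rw [h0, pow_zero] at hEk
      exact absurd hEk hE1
    · omega
  rcases hk3 with rfl | rfl | rfl
  · -- |E| = 2
    have hE2' : Nat.card ↥E = 2 := by rw [hEk]; norm_num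
    rw [hE2'] at hdvd hESdvd
    have hS2 : Nat.card ↥S = 2 := by
      have h3 : Nat.card ↥S ∣ 2 := by simpa using hdvd
      exact Nat.dvd_antisymm h3 hESdvd
    have hSE : E = S := Subgroup.eq_of_le_of_card_ge hES (by rw [hS2, hE2'])
    exact ⟨T, by rw [← hSE]; exact le_trans hET hTN⟩
  · -- |E| = 4
    have hE4 : Nat.card ↥E = 4 := by rw [hEk]; norm_num
    rw [hE4] at hdvd hESdvd hodd
    have h24 : Nat.card ↥S ∣ 4 * 6 := by
      have h3 : (4 - 1).factorial = 6 := by decide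
      rw [h3] at hdvd
      exact hdvd
    obtain ⟨j, hj⟩ := hESdvd
    rw [hj] at h24 hodd
    have hj6 : j ∣ 6 := Nat.dvd_of_mul_dvd_mul_left (by norm_num) h24
    have hjle : j ≤ 6 := Nat.le_of_dvd (by norm_num) hj6
    have hj2 : ¬ 2 ∣ j := by
      rw [Nat.mul_div_cancel_left j (by norm_num : 0 < 4)] at hodd
      exact hodd
    have key : ∀ j ≤ 6, j ∣ 6 → ¬ 2 ∣ j → j = 1 ∨ j = 3 := by decide
    rcases key j hjle hj6 hj2 with rfl | rfl
    · have hSE : E = S := Subgroup.eq_of_le_of_card_ge hES (by rw [hj, hE4])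
      exact ⟨T, by rw [← hSE]; exact le_trans hET hTN⟩
    · exact hA4 E S hES hSN hE4 (by rw [hj])
  · -- |E| = 8
    have hET' : E = (T : Subgroup G) := Subgroup.eq_of_le_of_card_ge hET (by rw [hT8, hEk]; norm_num)
    exact ⟨T, by rw [← hET']; exact hSN⟩

example (h1 : StIdxDvd.{u}) (h2 : StIdxOdd.{u}) : Cfsg.Agent.H69.RS.StTwo.{u} := two h1 h2

end Cfsg.Agent.H32.RS
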