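import Mathlib
import Cfsg.Prelude.Def_Solvable
import Cfsg.Prelude.Def_SolvableStructure
import Cfsg.Prelude.Def_CaseTheorems
import Cfsg.Agent.H60.Cores
import Cfsg.Agent.H72.BHM1
import Cfsg.Agent.H53.PRes
import Cfsg.Agent.S0526

/-!
# Squarefree class sizes: the commutator subgroup (helper32, part P4 of S4130)

`commutator_cyclic`: if all conjugacy class sizes of the finite supersolvable group `G` are
squarefree then `G'` is cyclic of squarefree order.

Core lemma `card_commutator_dvd`: if all class sizes of `X` are squarefree and `X'` is a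
`p`-group, then `|X'|` divides `p`.
-/

set_option autoImplicit false
set_option linter.style.haveILetI false

namespace Cfsg.Agent.H32.Sqf

open Cfsg
open scoped commutatorElement

universe u

section basic

variable {X : Type u} [Group X]

/-- `x ^ m ∈ R`, `x ^ n ∈ R` with `m`, `n` coprime gives `x ∈ R`. -/
theorem mem_of_pow_mem_of_pow_mem (R : Subgroup X) {x : X} {m n : ℕ} (hmn : m.Coprime n)
    (hm : x ^ m ∈ R) (hn : x ^ n ∈ R) : x ∈ R := by
  have h := Nat.gcd_eq_gcd_ab m n
  have h1 : Nat.gcd m n = 1 := hmn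
  rw [h1] at h
  have h2 : x = (x ^ m) ^ (Nat.gcdA m n) * (x ^ n) ^ (Nat.gcdB m n) := by
    rw [← zpow_natCast, ← zpow_natCast, ← zpow_mul, ← zpow_mul, ← zpow_add, ← h]
    simp
  rw [h2]
  exact R.mul_mem (R.zpow_mem hm _) (R.zpow_mem hn _)

/-- An element of `p`-power order killed by an exponent prime to `p` is trivial. -/
theorem eq_one_of_pow_eq_one {p k : ℕ} (hk : k.Coprime p) {x : X}
    (hx : ∃ j : ℕ, x ^ p ^ j = 1) (h : x ^ k = 1) : x = 1 := by
  obtain ⟨j, hj⟩ := hx
  have h1 : orderOf x ∣ k := orderOf_dvd_of_pow_eq_one h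
  have h2 : orderOf x ∣ p ^ j := orderOf_dvd_of_pow_eq_one hj
  have h3 : orderOf x ∣ Nat.gcd k (p ^ j) := Nat.dvd_gcd h1 h2
  have h4 : Nat.gcd k (p ^ j) = 1 := Nat.Coprime.pow_right j hk
  rw [h4, Nat.dvd_one, orderOf_eq_one_iff] at h3
  exact h3

/-- A subgroup containing the commutator subgroup is normal. -/
theorem normal_of_commutator_le (A : Subgroup X) (hA : commutator X ≤ A) : A.Normal := by
  refine ⟨fun n hn g => ?_⟩
  have h1 : g * n * g⁻¹ = ⁅g, n⁆ * n := by
    rw [commutatorElement_def]; group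
  rw [h1]
  refine A.mul_mem (hA ?_) hn
  rw [commutator_def]
  exact Subgroup.commutator_mem_commutator (Subgroup.mem_top g) (Subgroup.mem_top n)

theorem comm_mem_commutator (g h : X) : g * h * g⁻¹ * h⁻¹ ∈ commutator X := by
  rw [commutator_def, ← commutatorElement_def]
  exact Subgroup.commutator_mem_commutator (Subgroup.mem_top g) (Subgroup.mem_top h)

/-- A divisor of a prime power which is squarefree divides the prime. -/
theorem dvd_prime_of_squarefree {p n d : ℕ} (hp : p.Prime) (hd : d ∣ p ^ n) (hsq : Squarefree d) :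
    d ∣ p := by
  obtain ⟨j, -, rfl⟩ := (Nat.dvd_prime_pow hp).mp hd
  rcases Nat.lt_or_ge j 2 with hj | hj
  · interval_cases j
    · simp
    · simp
  · exfalso
    have h1 : p * p ∣ p ^ j := by
      rw [← pow_two]; exact pow_dvd_pow p hj
    have := hsq p h1
    exact hp.one_lt.ne' (Nat.isUnit_iff.mp this)

end basic

/-! ### The common line lemma (abstract form) -/

section cll

variable {A : Type u} [CommGroup A]

/-- `a ↦ a / α a`. -/
def dm (α : MulAut A) : A →* A := MonoidHom.id A / α.toMonoidHom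

theorem dm_apply (α : MulAut A) (a : A) : dm α a = a / α a := rfl

theorem dm_one (a : A) : dm (1 : MulAut A) a = 1 := by
  rw [dm_apply, MulAut.one_apply, div_self']

theorem dm_eq_one_iff {α : MulAut A} {a : A} : dm α a = 1 ↔ α a = a := by
  rw [dm_apply, div_eq_one]; exact eq_comm

theorem exists_dm_ne_one {α : MulAut A} (hα : α ≠ 1) : ∃ a, dm α a ≠ 1 := by
  by_contra h
  push Not at h
  apply hα
  ext a
  rw [MulAut.one_apply]
  exact dm_eq_one_iff.mp (h a)

theorem card_range_eq_of_ne_one [Finite A] {p : ℕ} (hp : p.Prime) {α : MulAut A} (hα : α ≠ 1)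
    (h1 : Nat.card (dm α).range ∣ p) : Nat.card (dm α).range = p := by
  rcases (Nat.dvd_prime hp).mp h1 with h | h
  · exfalso
    obtain ⟨a, ha⟩ := exists_dm_ne_one hα
    have hb := Subgroup.eq_bot_of_card_eq _ h
    have : dm α a ∈ (dm α).range := ⟨a, rfl⟩
    rw [hb, Subgroup.mem_bot] at this
    exact ha this
  · exact h

/-- A fixed point of `α` in the image of `a ↦ a / α a` is trivial (coprime order). -/
theorem eq_one_of_mem_range_of_fixed {p k : ℕ} (hA : IsPGroup p A) (hk : k.Coprime p)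
    {α : MulAut A} (hαk : α ^ k = 1) {n : A} (hn : n ∈ (dm α).range) (hfix : α n = n) :
    n = 1 := by
  obtain ⟨m, rfl⟩ := hn
  set n := dm α m with hn
  have h1 : α m = m / n := by
    rw [hn, dm_apply]; simp
  have key : ∀ i : ℕ, (α ^ i) m = m / n ^ i := by
    intro i
    induction i with
    | zero => simp
    | succ i ih =>
      rw [pow_succ', MulAut.mul_apply, ih, map_div, map_pow, hfix, h1, div_div, pow_succ']
  have h2 := key k
  rw [hαk, MulAut.one_apply] at h2
  have h3 : n ^ k = 1 := div_eq_self.mp h2.symm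
  exact eq_one_of_pow_eq_one hk (hA n) h3

/-- `β` preserves the image of `a ↦ a / α a` when `α` and `β` commute. -/
theorem map_mem_range {α β : MulAut A} (hc : α * β = β * α) {l : A} (hl : l ∈ (dm α).range) :
    β l ∈ (dm α).range := by
  obtain ⟨m, rfl⟩ := hl
  refine ⟨β m, ?_⟩
  rw [dm_apply, dm_apply, map_div]
  congr 1
  have := congrArg (fun f : MulAut A => f m) hc
  simpa [MulAut.mul_apply] using this

/-- **Common line lemma**: two commuting nontrivial automorphisms of `p'`-order of an abelian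
`p`-group whose commutator subgroups, and that of their product, have order at most `p`, have the
same commutator subgroup. -/
theorem cll [Finite A] {p k : ℕ} (hp : p.Prime) (hA : IsPGroup p A) (hk : k.Coprime p)
    (α β : MulAut A) (hc : α * β = β * α) (hαk : α ^ k = 1) (hβk : β ^ k = 1)
    (hα : α ≠ 1) (hβ : β ≠ 1)
    (h1 : Nat.card (dm α).range ∣ p) (h2 : Nat.card (dm β).range ∣ p)
    (h3 : Nat.card (dm (α * β)).range ∣ p) :
    (dm α).range = (dm β).range := by
  by_contra hne
  have hcα := card_range_eq_of_ne_one hp hα h1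
  have hcβ := card_range_eq_of_ne_one hp hβ h2
  -- the two lines meet trivially
  have hinf : ∀ w : A, w ∈ (dm α).range → w ∈ (dm β).range → w = 1 := by
    intro w hwα hwβ
    by_contra hw1
    have hI : Nat.card ((dm α).range ⊓ (dm β).range : Subgroup A) = p := by
      have hd : Nat.card ((dm α).range ⊓ (dm β).range : Subgroup A) ∣ p := by
        rw [← hcα]; exact Subgroup.card_dvd_of_le inf_le_left
      rcases (Nat.dvd_prime hp).mp hd with h | h
      · exfalso
        have hb := Subgroup.eq_bot_of_card_eq _ h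
        have : w ∈ ((dm α).range ⊓ (dm β).range : Subgroup A) := ⟨hwα, hwβ⟩
        rw [hb, Subgroup.mem_bot] at this
        exact hw1 this
      · exact h
    have e1 : ((dm α).range ⊓ (dm β).range : Subgroup A) = (dm α).range :=
      Subgroup.eq_of_le_of_card_ge inf_le_left (by rw [hI, hcα])
    have e2 : ((dm α).range ⊓ (dm β).range : Subgroup A) = (dm β).range :=
      Subgroup.eq_of_le_of_card_ge inf_le_right (by rw [hI, hcβ])
    exact hne (e1.symm.trans e2)
  -- `β` fixes the line of `α` and conversely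
  have hβfix : ∀ l ∈ (dm α).range, β l = l := by
    intro l hl
    apply dm_eq_one_iff.mp
    apply hinf
    · rw [dm_apply]
      exact Subgroup.div_mem _ hl (map_mem_range hc hl)
    · exact ⟨l, rfl⟩
  have hαfix : ∀ l ∈ (dm β).range, α l = l := by
    intro l hl
    apply dm_eq_one_iff.mp
    apply hinf
    · exact ⟨l, rfl⟩
    · rw [dm_apply]
      exact Subgroup.div_mem _ hl (map_mem_range hc.symm hl)
  -- the product map is injective into the line of `α * β`
  let f : (dm α).range × (dm β).range → (dm (α * β)).range := fun x =>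
    ⟨dm (α * β) ((x.1 : A) * (x.2 : A)), ⟨_, rfl⟩⟩
  have hfval : ∀ x : (dm α).range × (dm β).range,
      ((f x : (dm (α * β)).range) : A) = dm α (x.1 : A) * dm β (x.2 : A) := by
    intro x
    show dm (α * β) ((x.1 : A) * (x.2 : A)) = _
    have e1 : α (β (x.1 : A)) = α (x.1 : A) := by rw [hβfix _ x.1.2]
    have e2 : α (β (x.2 : A)) = β (x.2 : A) := by
      have := congrArg (fun g : MulAut A => g (x.2 : A)) hc
      simp only [MulAut.mul_apply] at this
      rw [this, hαfix _ x.2.2]
    rw [dm_apply, dm_apply, dm_apply, MulAut.mul_apply, map_mul, map_mul, e1, e2, mul_div_mul_comm]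
  have hinj : Function.Injective f := by
    intro x y hxy
    have h4 : dm α (x.1 : A) * dm β (x.2 : A) = dm α (y.1 : A) * dm β (y.2 : A) := by
      rw [← hfval, ← hfval, hxy]
    have h5 : dm α ((x.1 : A) / (y.1 : A)) = dm β ((y.2 : A) / (x.2 : A)) := by
      rw [map_div, map_div, div_eq_div_iff_mul_eq_mul, h4, mul_comm]
    have h6 : dm α ((x.1 : A) / (y.1 : A)) = 1 := hinf _ ⟨_, rfl⟩ (h5 ▸ ⟨_, rfl⟩)
    have h7 : dm β ((y.2 : A) / (x.2 : A)) = 1 := by rw [← h5]; exact h6
    have h8 : (x.1 : A) / (y.1 : A) = 1 :=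
      eq_one_of_mem_range_of_fixed hA hk hαk (Subgroup.div_mem _ x.1.2 y.1.2)
        (dm_eq_one_iff.mp h6)
    have h9 : (y.2 : A) / (x.2 : A) = 1 :=
      eq_one_of_mem_range_of_fixed hA hk hβk (Subgroup.div_mem _ y.2.2 x.2.2)
        (dm_eq_one_iff.mp h7)
    refine Prod.ext (Subtype.ext (div_eq_one.mp h8)) (Subtype.ext (div_eq_one.mp h9).symm)
  have hle := Nat.card_le_card_of_injective f hinj
  rw [Nat.card_prod, hcα, hcβ] at hle
  have hle2 : Nat.card (dm (α * β)).range ≤ p := Nat.le_of_dvd hp.pos h3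
  have : p * p ≤ p := hle.trans hle2
  nlinarith [hp.one_lt]

end cll

/-! ### Centralizers in a normal `p`-subgroup -/

section core

variable {X : Type u} [Group X]

/-- `C_P(x)` as a subgroup of `P`. -/
def cP (P : Subgroup X) (x : X) : Subgroup P :=
  (Subgroup.centralizer ({x} : Set X)).subgroupOf P

theorem mem_cP {P : Subgroup X} {x : X} {n : P} : n ∈ cP P x ↔ (n : X) * x = x * n := by
  unfold cP
  rw [Subgroup.mem_subgroupOf, Subgroup.mem_centralizer_iff]
  constructor
  · intro h
    exact (h x rfl).symm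
  · intro h y hy
    rw [Set.mem_singleton_iff] at hy
    rw [hy]
    exact h.symm

/-- `[P : C_P(x)]` divides `p` when the class sizes are squarefree. -/
theorem index_cP_dvd [Finite X] {p : ℕ} (hp : p.Prime) (P : Subgroup X) [P.Normal]
    (hP : IsPGroup p P)
    (hsq : ∀ x : X, Squarefree (Subgroup.centralizer ({x} : Set X)).index) (x : X) :
    (cP P x).index ∣ p := by
  haveI : Fact p.Prime := ⟨hp⟩
  have h1 : (Subgroup.centralizer ({x} : Set X)).relIndex P ∣
      (Subgroup.centralizer ({x} : Set X)).index :=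
    Cfsg.Agent.H72.BHM.relIndex_dvd_index_of_normal_right _ P
  have h2 : Squarefree ((Subgroup.centralizer ({x} : Set X)).relIndex P) :=
    Squarefree.squarefree_of_dvd h1 (hsq x)
  obtain ⟨n, hn⟩ := IsPGroup.iff_card.mp hP
  have h3 : (cP P x).index ∣ p ^ n := by
    rw [← hn]; exact Subgroup.index_dvd_card _
  exact dvd_prime_of_squarefree hp h3 h2

/-- A subgroup properly containing a subgroup of index dividing `p` is everything. -/
theorem eq_top_of_index_dvd {Q : Type*} [Group Q] [Finite Q] {p : ℕ} (hp : p.Prime)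
    {A K : Subgroup Q} (hA : A.index ∣ p) (hAK : A ≤ K) (hne : ¬ K ≤ A) : K = ⊤ := by
  have h := Subgroup.relIndex_mul_index hAK
  rw [← Subgroup.index_eq_one]
  have hK : K.index ∣ p := dvd_trans (Dvd.intro_left _ h) hA
  rcases (Nat.dvd_prime hp).mp hK with h1 | h1
  · exact h1
  · exfalso
    have hAi : A.index = p := by
      rcases (Nat.dvd_prime hp).mp hA with h2 | h2
      · exact absurd (by rw [Subgroup.index_eq_one.mp h2]; exact le_top) hne
      · exact h2
    rw [h1, hAi] at h
    have h3 : A.relIndex K = 1 := by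
      have := hp.pos
      nlinarith
    exact hne (Subgroup.relIndex_eq_one.mp h3)

/-- Abelian case: `X' ≤ P` with `P` an abelian normal `p`-subgroup of index prime to `p`. -/
theorem comm_le_of_abelian [Finite X] {p : ℕ} (hp : p.Prime) (P : Subgroup X) [hPn : P.Normal]
    (hP : IsPGroup p P) (hidx : (P.index).Coprime p) (hXP : commutator X ≤ P)
    (hsq : ∀ x : X, Squarefree (Subgroup.centralizer ({x} : Set X)).index)
    (hab : ∀ a ∈ P, ∀ b ∈ P, a * b = b * a) :
    ∃ L : Subgroup X, Nat.card L ∣ p ∧ commutator X ≤ L := by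
  classical
  haveI : Fact p.Prime := ⟨hp⟩
  letI : CommGroup P :=
    { (inferInstance : Group P) with mul_comm := fun a b => Subtype.ext (hab a a.2 b b.2) }
  let σ : X →* MulAut P := MulAut.conjNormal
  have hσ : ∀ (y : X) (n : P), ((σ y n : P) : X) = y * n * y⁻¹ :=
    fun y n => MulAut.conjNormal_apply y n
  have hdm : ∀ (y : X) (n : P), ((dm (σ y) n : P) : X) = n * y * (n : X)⁻¹ * y⁻¹ := by
    intro y n
    rw [dm_apply, div_eq_mul_inv, Subgroup.coe_mul, Subgroup.coe_inv, hσ]
    group
  have hker : ∀ y : X, (dm (σ y)).ker = cP P y := by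
    intro y
    ext n
    rw [MonoidHom.mem_ker, dm_eq_one_iff, mem_cP]
    constructor
    · intro h
      have h1 := congrArg Subtype.val h
      rw [hσ] at h1
      calc (n : X) * y = (y * n * y⁻¹) * y := by rw [h1]
        _ = y * n := by group
    · intro h
      apply Subtype.ext
      rw [hσ, ← h]
      group
  have hcard : ∀ y : X, Nat.card (dm (σ y)).range ∣ p := by
    intro y
    rw [← Subgroup.index_ker, hker]
    exact index_cP_dvd hp P hP hsq y
  have hσP : ∀ n : X, n ∈ P → σ n = 1 := by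
    intro n hn
    ext m
    rw [MulAut.one_apply, hσ, hab n hn m m.2]
    group
  have hcomm : ∀ y z : X, σ y * σ z = σ z * σ y := by
    intro y z
    rw [← map_mul, ← map_mul]
    have h1 : y * z = (y * z * y⁻¹ * z⁻¹) * (z * y) := by group
    rw [h1, map_mul, hσP _ (hXP (comm_mem_commutator y z)), one_mul]
  have hpow : ∀ y : X, σ y ^ P.index = 1 := by
    intro y
    rw [← map_pow]
    exact hσP _ (Subgroup.pow_index_mem P y)
  obtain ⟨L, hL, hLy⟩ : ∃ L : Subgroup P, Nat.card L ∣ p ∧ ∀ y : X, (dm (σ y)).range ≤ L := by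
    by_cases h : ∃ y₀ : X, σ y₀ ≠ 1
    · obtain ⟨y₀, hy₀⟩ := h
      refine ⟨(dm (σ y₀)).range, hcard y₀, fun y => ?_⟩
      by_cases hy : σ y = 1
      · rw [hy]
        rintro _ ⟨a, rfl⟩
        rw [dm_one]
        exact Subgroup.one_mem _
      · exact le_of_eq (cll hp hP hidx (σ y) (σ y₀) (hcomm y y₀) (hpow y) (hpow y₀) hy hy₀
          (hcard y) (hcard y₀) (by rw [← map_mul]; exact hcard _))
    · push Not at h
      refine ⟨⊥, by rw [Subgroup.card_bot]; exact one_dvd p, fun y => ?_⟩
      rw [h y]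
      rintro _ ⟨a, rfl⟩
      rw [dm_one]
      exact Subgroup.one_mem _
  refine ⟨L.map P.subtype, ?_, ?_⟩
  · rw [Subgroup.card_map_of_injective P.subtype_injective]
    exact hL
  · have hL' : ∀ (n : X) (_ : n ∈ P) (y : X), n * y * n⁻¹ * y⁻¹ ∈ L.map P.subtype := by
      intro n hn y
      refine ⟨dm (σ y) ⟨n, hn⟩, hLy y ⟨_, rfl⟩, ?_⟩
      rw [Subgroup.subtype_apply, hdm]
    have hLP : L.map P.subtype ≤ P := by
      rintro _ ⟨n, -, rfl⟩
      exact n.2
    rw [commutator_def, Subgroup.commutator_le]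
    intro g _ h _
    rw [commutatorElement_def]
    have hcP : g * h * g⁻¹ * h⁻¹ ∈ P := hXP (comm_mem_commutator g h)
    have key : ∀ i : ℕ, ∃ l ∈ L.map P.subtype,
        g ^ i * h * (g ^ i)⁻¹ * h⁻¹ = (g * h * g⁻¹ * h⁻¹) ^ i * l := by
      intro i
      induction i with
      | zero => exact ⟨1, Subgroup.one_mem _, by simp⟩
      | succ i ih =>
        obtain ⟨l, hl, he⟩ := ih
        have heP : g ^ i * h * (g ^ i)⁻¹ * h⁻¹ ∈ P := hXP (comm_mem_commutator (g ^ i) h)
        obtain ⟨e, hedef⟩ : ∃ e, e = g ^ i * h * (g ^ i)⁻¹ * h⁻¹ := ⟨_, rfl⟩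
        rw [← hedef] at he heP
        have hl' := hL' e⁻¹ (P.inv_mem heP) g
        obtain ⟨l', hl'def⟩ : ∃ l', l' = e⁻¹ * g * e⁻¹⁻¹ * g⁻¹ := ⟨_, rfl⟩
        rw [← hl'def] at hl'
        refine ⟨l * l', Subgroup.mul_mem _ hl hl', ?_⟩
        have h1 : g ^ (i + 1) * h * (g ^ (i + 1))⁻¹ * h⁻¹ = e * l' * (g * h * g⁻¹ * h⁻¹) := by
          rw [hl'def, hedef, pow_succ']; group
        have hcl := hab (g * h * g⁻¹ * h⁻¹) hcP _ (hLP (Subgroup.mul_mem _ hl hl'))
        rw [h1, he, pow_succ]
        calc (g * h * g⁻¹ * h⁻¹) ^ i * l * l' * (g * h * g⁻¹ * h⁻¹)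
            = (g * h * g⁻¹ * h⁻¹) ^ i * ((l * l') * (g * h * g⁻¹ * h⁻¹)) := by
              simp only [mul_assoc]
          _ = (g * h * g⁻¹ * h⁻¹) ^ i * ((g * h * g⁻¹ * h⁻¹) * (l * l')) := by rw [hcl]
          _ = (g * h * g⁻¹ * h⁻¹) ^ i * (g * h * g⁻¹ * h⁻¹) * (l * l') := (mul_assoc _ _ _).symm
    obtain ⟨l, hl, he⟩ := key P.index
    have h1 : g ^ P.index * h * (g ^ P.index)⁻¹ * h⁻¹ ∈ L.map P.subtype :=
      hL' (g ^ P.index) (Subgroup.pow_index_mem P g) h
    have h2 : (g * h * g⁻¹ * h⁻¹) ^ P.index ∈ L.map P.subtype := by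
      have h3 : (g * h * g⁻¹ * h⁻¹) ^ P.index =
          (g ^ P.index * h * (g ^ P.index)⁻¹ * h⁻¹) * l⁻¹ := by
        rw [he]; group
      rw [h3]
      exact Subgroup.mul_mem _ h1 (Subgroup.inv_mem _ hl)
    obtain ⟨j, hj⟩ := (IsPGroup.iff_orderOf.mp hP) ⟨g * h * g⁻¹ * h⁻¹, hcP⟩
    have hord : orderOf (g * h * g⁻¹ * h⁻¹) = p ^ j := by
      rw [← hj]
      exact (Subgroup.orderOf_mk _ hcP).symm
    exact Cfsg.Agent.H53.mem_of_pow_mem_of_coprime
      (by rw [hord]; exact Nat.Coprime.pow_right j hidx) h2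

/-- Two subgroups of order dividing `p` with a common nontrivial element are equal. -/
theorem eq_of_card_dvd_of_mem [Finite X] {p : ℕ} (hp : p.Prime) {R₁ R₂ : Subgroup X}
    (h₁ : Nat.card R₁ ∣ p) (h₂ : Nat.card R₂ ∣ p) {w : X} (hw₁ : w ∈ R₁) (hw₂ : w ∈ R₂)
    (hw : w ≠ 1) : R₁ = R₂ := by
  have hI : Nat.card (R₁ ⊓ R₂ : Subgroup X) = p := by
    have hd : Nat.card (R₁ ⊓ R₂ : Subgroup X) ∣ p :=
      dvd_trans (Subgroup.card_dvd_of_le inf_le_left) h₁
    rcases (Nat.dvd_prime hp).mp hd with h | h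
    · exfalso
      have hb := Subgroup.eq_bot_of_card_eq _ h
      have : w ∈ (R₁ ⊓ R₂ : Subgroup X) := ⟨hw₁, hw₂⟩
      rw [hb, Subgroup.mem_bot] at this
      exact hw this
    · exact h
  have e1 : (R₁ ⊓ R₂ : Subgroup X) = R₁ :=
    Subgroup.eq_of_le_of_card_ge inf_le_left (by rw [hI]; exact Nat.le_of_dvd hp.pos h₁)
  have e2 : (R₁ ⊓ R₂ : Subgroup X) = R₂ :=
    Subgroup.eq_of_le_of_card_ge inf_le_right (by rw [hI]; exact Nat.le_of_dvd hp.pos h₂)
  exact e1.symm.trans e2

/-- Commutators of a normal `p`-subgroup are central when the class sizes are squarefree. -/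
theorem comm_central [Finite X] {p : ℕ} (hp : p.Prime) (P : Subgroup X) [hPn : P.Normal]
    (hP : IsPGroup p P)
    (hsq : ∀ x : X, Squarefree (Subgroup.centralizer ({x} : Set X)).index)
    {a b : X} (ha : a ∈ P) (hb : b ∈ P) (x : X) :
    (a * b * a⁻¹ * b⁻¹) * x = x * (a * b * a⁻¹ * b⁻¹) := by
  haveI : Fact p.Prime := ⟨hp⟩
  have hA := index_cP_dvd hp P hP hsq x
  have hle : commutator P ≤ cP P x := by
    rcases (Nat.dvd_prime hp).mp hA with h1 | h1
    · rw [Subgroup.index_eq_one.mp h1]; exact le_top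
    · have hcard : Nat.card P ≠ 1 := by
        intro h
        have h2 : (cP P x).index ∣ 1 := by rw [← h]; exact Subgroup.index_dvd_card _
        rw [h1] at h2
        exact hp.one_lt.ne' (Nat.dvd_one.mp h2)
      obtain ⟨n, hn⟩ := IsPGroup.iff_card.mp hP
      have hn0 : n ≠ 0 := by
        rintro rfl
        rw [pow_zero] at hn
        exact hcard hn
      haveI hnorm : (cP P x).Normal := by
        apply Subgroup.normal_of_index_eq_minFac_card
        rw [h1, hn, Nat.Prime.pow_minFac hp hn0]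
      have hq : Nat.card (P ⧸ cP P x) = p := by
        rw [← Subgroup.index_eq_card]; exact h1
      have hcyc : IsCyclic (P ⧸ cP P x) := isCyclic_of_prime_card hq
      exact Subgroup.Normal.quotient_commutative_iff_commutator_le.mp hcyc.isMulCommutative
  have hmem : (⟨a, ha⟩ * ⟨b, hb⟩ * (⟨a, ha⟩ : P)⁻¹ * (⟨b, hb⟩ : P)⁻¹ : P) ∈ cP P x :=
    hle (comm_mem_commutator _ _)
  exact mem_cP.mp hmem

/-- `b ↦ [a, b]` on `P`, a homomorphism when these commutators are central in `P`. -/
def commHom (P : Subgroup X) (a : X)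
    (hcen : ∀ b ∈ P, ∀ y ∈ P, (a * b * a⁻¹ * b⁻¹) * y = y * (a * b * a⁻¹ * b⁻¹)) : P →* X :=
  MonoidHom.mk' (fun b => a * b * a⁻¹ * (b : X)⁻¹) (by
    intro b₁ b₂
    have h := hcen b₂ b₂.2 b₁ b₁.2
    have h' : (a * b₂ * a⁻¹ * (b₂ : X)⁻¹) * (b₁ : X)⁻¹ =
        (b₁ : X)⁻¹ * (a * b₂ * a⁻¹ * (b₂ : X)⁻¹) := by
      calc (a * b₂ * a⁻¹ * (b₂ : X)⁻¹) * (b₁ : X)⁻¹
          = (b₁ : X)⁻¹ * ((b₁ : X) * (a * b₂ * a⁻¹ * (b₂ : X)⁻¹)) * (b₁ : X)⁻¹ := by group
        _ = (b₁ : X)⁻¹ * ((a * b₂ * a⁻¹ * (b₂ : X)⁻¹) * b₁) * (b₁ : X)⁻¹ := by rw [h]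
        _ = (b₁ : X)⁻¹ * (a * b₂ * a⁻¹ * (b₂ : X)⁻¹) := by group
    rw [Subgroup.coe_mul]
    calc a * ((b₁ : X) * b₂) * a⁻¹ * ((b₁ : X) * b₂)⁻¹
        = a * b₁ * a⁻¹ * ((a * b₂ * a⁻¹ * (b₂ : X)⁻¹) * (b₁ : X)⁻¹) := by group
      _ = a * b₁ * a⁻¹ * ((b₁ : X)⁻¹ * (a * b₂ * a⁻¹ * (b₂ : X)⁻¹)) := by rw [h']
      _ = (a * b₁ * a⁻¹ * (b₁ : X)⁻¹) * (a * b₂ * a⁻¹ * (b₂ : X)⁻¹) := by group)

/-- Nonabelian case. -/
theorem comm_le_of_nonabelian [Finite X] {p : ℕ} (hp : p.Prime) (P : Subgroup X)
    [hPn : P.Normal] (hP : IsPGroup p P) (hidx : (P.index).Coprime p) (hXP : commutator X ≤ P)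
    (hsq : ∀ x : X, Squarefree (Subgroup.centralizer ({x} : Set X)).index)
    (hnab : ¬ ∀ a ∈ P, ∀ b ∈ P, a * b = b * a) :
    ∃ L : Subgroup X, Nat.card L ∣ p ∧ commutator X ≤ L := by
  classical
  haveI : Fact p.Prime := ⟨hp⟩
  have hcen : ∀ a ∈ P, ∀ b ∈ P, ∀ x : X,
      (a * b * a⁻¹ * b⁻¹) * x = x * (a * b * a⁻¹ * b⁻¹) :=
    fun a ha b hb x => comm_central hp P hP hsq ha hb x
  have hψ : ∀ a ∈ P, ∃ R : Subgroup X, Nat.card R ∣ p ∧ ∀ b ∈ P, a * b * a⁻¹ * b⁻¹ ∈ R := by
    intro a ha
    let ψ := commHom P a (fun b hb y _ => hcen a ha b hb y)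
    refine ⟨ψ.range, ?_, fun b hb => ⟨⟨b, hb⟩, rfl⟩⟩
    rw [← Subgroup.index_ker]
    have hk : ψ.ker = cP P a := by
      ext b
      rw [MonoidHom.mem_ker, mem_cP]
      show a * b * a⁻¹ * (b : X)⁻¹ = 1 ↔ _
      constructor
      · intro h
        calc (b : X) * a = (a * b * a⁻¹ * (b : X)⁻¹)⁻¹ * (a * b) := by group
          _ = a * b := by rw [h, inv_one, one_mul]
      · intro h
        calc a * b * a⁻¹ * (b : X)⁻¹ = (b * a) * a⁻¹ * (b : X)⁻¹ := by rw [h]
          _ = 1 := by group
    rw [hk]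
    exact index_cP_dvd hp P hP hsq a
  choose R hRcard hRmem using hψ
  obtain ⟨a₀, ha₀, b₀, hb₀, hne₀⟩ : ∃ a₀ ∈ P, ∃ b₀ ∈ P, a₀ * b₀ ≠ b₀ * a₀ := by
    by_contra h
    push Not at h
    exact hnab h
  -- all commutators of `P` lie in one subgroup of order `p`
  have hL : ∀ a ∈ P, ∀ b ∈ P, a * b * a⁻¹ * b⁻¹ ∈ R a₀ ha₀ := by
    intro a ha b hb
    by_cases hab : a * b = b * a
    · have h1 : a * b * a⁻¹ * b⁻¹ = 1 := by rw [hab]; group
      rw [h1]
      exact Subgroup.one_mem _
    · obtain ⟨z, hz, hza, hza₀⟩ : ∃ z ∈ P, a * z ≠ z * a ∧ a₀ * z ≠ z * a₀ := by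
        by_cases h1 : a₀ * b = b * a₀
        · by_cases h2 : a * b₀ = b₀ * a
          · refine ⟨b * b₀, P.mul_mem hb hb₀, ?_, ?_⟩
            · intro h
              apply hab
              have h3 : a * b * b₀ = b * a * b₀ := by
                calc a * b * b₀ = a * (b * b₀) := by group
                  _ = b * b₀ * a := h
                  _ = b * (b₀ * a) := by group
                  _ = b * (a * b₀) := by rw [h2]
                  _ = b * a * b₀ := by group
              exact mul_right_cancel h3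
            · intro h
              apply hne₀
              have h3 : b * (a₀ * b₀) = b * (b₀ * a₀) := by
                calc b * (a₀ * b₀) = (b * a₀) * b₀ := by group
                  _ = (a₀ * b) * b₀ := by rw [h1]
                  _ = a₀ * (b * b₀) := by group
                  _ = b * b₀ * a₀ := h
                  _ = b * (b₀ * a₀) := by group
              exact mul_left_cancel h3
          · exact ⟨b₀, hb₀, h2, hne₀⟩
        · exact ⟨b, hb, hab, h1⟩
      have aux : ∀ u (hu : u ∈ P), u * z ≠ z * u → R u hu = R z hz := by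
        intro u hu hne
        apply eq_of_card_dvd_of_mem hp (hRcard u hu) (hRcard z hz) (hRmem u hu z hz) ?_ ?_
        · have h3 : u * z * u⁻¹ * z⁻¹ = (z * u * z⁻¹ * u⁻¹)⁻¹ := by group
          rw [h3]
          exact Subgroup.inv_mem _ (hRmem z hz u hu)
        · intro h
          apply hne
          calc u * z = (u * z * u⁻¹ * z⁻¹) * (z * u) := by group
            _ = z * u := by rw [h, one_mul]
      rw [aux a₀ ha₀ hza₀, ← aux a ha hza]
      exact hRmem a ha b hb
  -- elements of order prime to `p` centralize `P`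
  have hpcen : ∀ h : X, (orderOf h).Coprime p → ∀ a ∈ P, h * a = a * h := by
    intro h hh
    by_contra hcon
    push Not at hcon
    obtain ⟨a₁, ha₁, hne₁⟩ := hcon
    have hAidx := index_cP_dvd hp P hP hsq h
    have hAtop : cP P h ≠ ⊤ := by
      intro ht
      have h1 : (⟨a₁, ha₁⟩ : P) ∈ cP P h := by rw [ht]; trivial
      exact hne₁ (mem_cP.mp h1).symm
    have d1 : ∀ x' : P, x' ∈ cP P h → cP P h ≤ cP P x' := by
      intro x' hx'
      have hxh : (x' : X) * h = h * x' := mem_cP.mp hx'
      have hsub : cP P (h * x') ≤ cP P h ⊓ cP P x' := by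
        intro v hv
        have hv' : Commute (v : X) (h * x') := mem_cP.mp hv
        obtain ⟨j, hj⟩ := IsPGroup.iff_orderOf.mp hP x'
        have hxo : orderOf (x' : X) = p ^ j := by
          rw [← hj]; exact Subgroup.orderOf_coe x'
        have hpow : (h * x') ^ (p ^ j) = h ^ (p ^ j) := by
          rw [(show Commute h (x' : X) from hxh.symm).mul_pow, ← hxo, pow_orderOf_eq_one, mul_one]
        obtain ⟨m, hm⟩ := exists_pow_eq_self_of_coprime
          (show (p ^ j).Coprime (orderOf h) from Nat.Coprime.pow_left j hh.symm)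
        have hvh : Commute (v : X) h := by
          have hc2 : Commute (v : X) (((h * x') ^ (p ^ j)) ^ m) := (hv'.pow_right _).pow_right _
          rw [hpow, hm] at hc2
          exact hc2
        have hvx : Commute (v : X) x' := by
          have hc3 : Commute (v : X) (h⁻¹ * (h * x')) := (Commute.inv_right hvh).mul_right hv'
          rw [inv_mul_cancel_left] at hc3
          exact hc3
        exact ⟨mem_cP.mpr hvh, mem_cP.mpr hvx⟩
      have hidx2 := index_cP_dvd hp P hP hsq (h * x')
      have hge : cP P h ≤ cP P (h * x') := by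
        by_contra hnot
        exact hAtop (eq_top_of_index_dvd hp hidx2 (hsub.trans inf_le_left) hnot)
      exact hge.trans (hsub.trans inf_le_right)
    obtain ⟨a, haA, x', hx'A, hax⟩ :
        ∃ a : P, a ∉ cP P h ∧ ∃ x' : P, x' ∈ cP P h ∧ (a : X) * x' ≠ x' * a := by
      by_contra hcon2
      push Not at hcon2
      apply hnab
      have key : ∀ u v : P, (u : X) * v = v * u := by
        intro u v
        by_cases hu : u ∈ cP P h
        · by_cases hv : v ∈ cP P h
          · exact (mem_cP.mp (d1 u hu hv)).symm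
          · exact (hcon2 v hv u hu).symm
        · by_cases hv : v ∈ cP P h
          · exact hcon2 u hu v hv
          · have hAK : cP P h ≤ cP P u := by
              intro x' hx'
              exact mem_cP.mpr (hcon2 u hu x' hx').symm
            have hnot : ¬ cP P u ≤ cP P h := by
              intro hle
              exact hu (hle (mem_cP.mpr rfl))
            have htop := eq_top_of_index_dvd hp hAidx hAK hnot
            have hv' : v ∈ cP P u := by rw [htop]; trivial
            exact (mem_cP.mp hv').symm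
      intro a ha b hb
      exact key ⟨a, ha⟩ ⟨b, hb⟩
    have hxh : (x' : X) * h = h * x' := mem_cP.mp hx'A
    have ha'P : h * a * h⁻¹ ∈ P := hPn.conj_mem a a.2 h
    have hc1 : (h * a * h⁻¹) * x' * (h * a * h⁻¹)⁻¹ * (x' : X)⁻¹ =
        (a : X) * x' * (a : X)⁻¹ * (x' : X)⁻¹ := by
      have e1 : (x' : X) = h * x' * h⁻¹ := by rw [← hxh]; group
      have h1 : (h * a * h⁻¹) * x' * (h * a * h⁻¹)⁻¹ * (x' : X)⁻¹ =
          h * ((a : X) * x' * (a : X)⁻¹ * (x' : X)⁻¹) * h⁻¹ := by
        calc (h * a * h⁻¹) * x' * (h * a * h⁻¹)⁻¹ * (x' : X)⁻¹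
            = (h * a * h⁻¹) * (h * x' * h⁻¹) * (h * a * h⁻¹)⁻¹ * (h * x' * h⁻¹)⁻¹ := by
              rw [← e1]
          _ = h * ((a : X) * x' * (a : X)⁻¹ * (x' : X)⁻¹) * h⁻¹ := by group
      rw [h1]
      have h2 := hcen a a.2 x' x'.2 h⁻¹
      calc h * ((a : X) * x' * (a : X)⁻¹ * (x' : X)⁻¹) * h⁻¹
          = h * (((a : X) * x' * (a : X)⁻¹ * (x' : X)⁻¹) * h⁻¹) := by group
        _ = h * (h⁻¹ * ((a : X) * x' * (a : X)⁻¹ * (x' : X)⁻¹)) := by rw [h2]
        _ = (a : X) * x' * (a : X)⁻¹ * (x' : X)⁻¹ := by group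
    obtain ⟨b, hbdef⟩ : ∃ b : X, b = (a : X)⁻¹ * (h * a * h⁻¹) := ⟨_, rfl⟩
    have hbP : b ∈ P := by
      rw [hbdef]; exact P.mul_mem (P.inv_mem a.2) ha'P
    have hbx : b * x' = x' * b := by
      have h3 : (h * a * h⁻¹) * x' * (h * a * h⁻¹)⁻¹ = (a : X) * x' * (a : X)⁻¹ := by
        have h4 := congrArg (· * (x' : X)) hc1
        simpa [mul_assoc] using h4
      rw [hbdef]
      calc (a : X)⁻¹ * (h * a * h⁻¹) * x'
          = (a : X)⁻¹ * ((h * a * h⁻¹) * x' * (h * a * h⁻¹)⁻¹) * (h * a * h⁻¹) := by group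
        _ = (a : X)⁻¹ * ((a : X) * x' * (a : X)⁻¹) * (h * a * h⁻¹) := by rw [h3]
        _ = x' * ((a : X)⁻¹ * (h * a * h⁻¹)) := by group
    have hbA : (⟨b, hbP⟩ : P) ∈ cP P h := by
      have h4 : (⟨b, hbP⟩ : P) ∈ cP P x' := mem_cP.mpr hbx
      have h5 : cP P x' ≤ cP P h := by
        by_contra hnot
        have htop := eq_top_of_index_dvd hp hAidx (d1 x' hx'A) hnot
        have h6 : a ∈ cP P x' := by rw [htop]; trivial
        exact hax (mem_cP.mp h6)
      exact h5 h4
    have hbh : b * h = h * b := mem_cP.mp hbA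
    have key : ∀ i : ℕ, h ^ i * a * (h ^ i)⁻¹ = a * b ^ i := by
      intro i
      induction i with
      | zero => simp
      | succ i ih =>
        have e1 : h ^ (i + 1) * a * (h ^ (i + 1))⁻¹ = h * (h ^ i * a * (h ^ i)⁻¹) * h⁻¹ := by
          rw [pow_succ']; group
        rw [e1, ih]
        have e2 : h * ((a : X) * b ^ i) * h⁻¹ = (h * a * h⁻¹) * (h * b ^ i * h⁻¹) := by group
        have e3 : h * b ^ i * h⁻¹ = b ^ i := by
          have hc : Commute h (b ^ i) := Commute.pow_right (show Commute h b from hbh.symm) i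
          rw [hc.eq]; group
        have e4 : h * a * h⁻¹ = a * b := by rw [hbdef]; group
        rw [e2, e3, e4, pow_succ', mul_assoc]
    have h6 := key (orderOf h)
    rw [pow_orderOf_eq_one] at h6
    have h7 : b ^ orderOf h = 1 := by
      have h8 : (a : X) = a * b ^ orderOf h := by simpa using h6
      exact mul_left_cancel (a := (a : X)) (by rw [mul_one]; exact h8.symm)
    have h8 : b = 1 := eq_one_of_pow_eq_one hh (by
      obtain ⟨j, hj⟩ := hP ⟨b, hbP⟩
      exact ⟨j, by simpa using congrArg Subtype.val hj⟩) h7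
    apply haA
    rw [mem_cP]
    have h9 : h * a * h⁻¹ = a := by
      rw [hbdef] at h8
      exact (inv_mul_eq_one.mp h8).symm
    calc (a : X) * h = (h * a * h⁻¹) * h := by rw [h9]
      _ = h * a := by group
  -- `X = P * C_X(P)` and `C_X(P)` is abelian
  have hmemC : ∀ c : X, c ∈ Subgroup.centralizer (P : Set X) ↔ ∀ a ∈ P, a * c = c * a :=
    fun c => Subgroup.mem_centralizer_iff
  have e1 : ∀ g : X, g ∈ P ⊔ Subgroup.centralizer (P : Set X) := by
    intro g
    have ho : orderOf g ≠ 0 := (orderOf_pos g).ne'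
    obtain ⟨e, m, hm, hem⟩ := Nat.exists_eq_pow_mul_and_not_dvd ho p hp.ne_one
    have h1 : g ^ (p ^ e) ∈ Subgroup.centralizer (P : Set X) := by
      rw [hmemC]
      intro a ha
      have hco : (orderOf (g ^ (p ^ e))).Coprime p := by
        have hd : orderOf (g ^ (p ^ e)) ∣ m := by
          apply orderOf_dvd_of_pow_eq_one
          rw [← pow_mul, ← hem, pow_orderOf_eq_one]
        exact Nat.Coprime.coprime_dvd_left hd ((Nat.Prime.coprime_iff_not_dvd hp).mpr hm).symm
      exact (hpcen _ hco a ha).symm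
    have h2 : g ^ P.index ∈ P := Subgroup.pow_index_mem P g
    exact mem_of_pow_mem_of_pow_mem _ (Nat.Coprime.pow_left e hidx.symm)
      ((le_sup_right : Subgroup.centralizer (P : Set X) ≤ P ⊔ Subgroup.centralizer (P : Set X)) h1)
      ((le_sup_left : P ≤ P ⊔ Subgroup.centralizer (P : Set X)) h2)
  have e2 : ∀ c ∈ Subgroup.centralizer (P : Set X), ∀ d ∈ Subgroup.centralizer (P : Set X),
      c * d = d * c := by
    intro c hc d hd
    obtain ⟨z, hz⟩ : ∃ z : X, z = c * d * c⁻¹ * d⁻¹ := ⟨_, rfl⟩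
    have hzP : z ∈ P := by rw [hz]; exact hXP (comm_mem_commutator c d)
    have hzC : z ∈ Subgroup.centralizer (P : Set X) := by
      rw [hz]
      exact Subgroup.mul_mem _ (Subgroup.mul_mem _ (Subgroup.mul_mem _ hc hd)
        (Subgroup.inv_mem _ hc)) (Subgroup.inv_mem _ hd)
    have hzcen : ∀ g : X, g * z = z * g := by
      intro g
      have hle : P ⊔ Subgroup.centralizer (P : Set X) ≤ Subgroup.centralizer ({z} : Set X) := by
        apply sup_le
        · intro a ha
          rw [Subgroup.mem_centralizer_iff]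
          intro y hy
          rw [Set.mem_singleton_iff] at hy
          rw [hy]
          exact ((hmemC z).mp hzC a ha).symm
        · intro c' hc'
          rw [Subgroup.mem_centralizer_iff]
          intro y hy
          rw [Set.mem_singleton_iff] at hy
          rw [hy]
          exact (hmemC c').mp hc' z hzP
      have h1 := hle (e1 g)
      rw [Subgroup.mem_centralizer_iff] at h1
      exact (h1 z rfl).symm
    have key : ∀ i : ℕ, c ^ i * d * (c ^ i)⁻¹ * d⁻¹ = z ^ i := by
      intro i
      induction i with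
      | zero => simp
      | succ i ih =>
        have e : c ^ (i + 1) * d * (c ^ (i + 1))⁻¹ * d⁻¹ =
            c * (c ^ i * d * (c ^ i)⁻¹ * d⁻¹) * c⁻¹ * (c * d * c⁻¹ * d⁻¹) := by
          rw [pow_succ']; group
        rw [e, ih, ← hz]
        have hcz : c * z ^ i = z ^ i * c := (Commute.pow_right (show Commute c z from hzcen c) i).eq
        rw [hcz, pow_succ]; group
    have h1 := key P.index
    have h2 : c ^ P.index * d * (c ^ P.index)⁻¹ * d⁻¹ = 1 := by
      have h3 : c ^ P.index * d = d * c ^ P.index :=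
        (hmemC d).mp hd _ (Subgroup.pow_index_mem P c)
      rw [h3]; group
    rw [h2] at h1
    have hz1 : z = 1 := eq_one_of_pow_eq_one hidx (by
      obtain ⟨j, hj⟩ := hP ⟨z, hzP⟩
      exact ⟨j, by simpa using congrArg Subtype.val hj⟩) h1.symm
    calc c * d = (c * d * c⁻¹ * d⁻¹) * (d * c) := by group
      _ = d * c := by rw [← hz, hz1, one_mul]
  refine ⟨R a₀ ha₀, hRcard a₀ ha₀, ?_⟩
  rw [commutator_def, Subgroup.commutator_le]
  intro g _ h _
  rw [commutatorElement_def]
  have hg := e1 g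
  have hh := e1 h
  rw [← SetLike.mem_coe, Subgroup.normal_mul] at hg hh
  obtain ⟨a, ha, c, hc, rfl⟩ := Set.mem_mul.mp hg
  obtain ⟨b, hb, d, hd, rfl⟩ := Set.mem_mul.mp hh
  have hcb : c * b = b * c := ((hmemC c).mp hc b hb).symm
  have hcd : c * d = d * c := e2 c hc d hd
  have hda : d * a⁻¹ = a⁻¹ * d := ((hmemC d).mp hd a⁻¹ (P.inv_mem ha)).symm
  have hfin : a * c * (b * d) * (a * c)⁻¹ * (b * d)⁻¹ = a * b * a⁻¹ * b⁻¹ := by
    calc a * c * (b * d) * (a * c)⁻¹ * (b * d)⁻¹
        = a * (c * b) * d * c⁻¹ * a⁻¹ * d⁻¹ * b⁻¹ := by group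
      _ = a * (b * c) * d * c⁻¹ * a⁻¹ * d⁻¹ * b⁻¹ := by rw [hcb]
      _ = a * b * (c * d) * c⁻¹ * a⁻¹ * d⁻¹ * b⁻¹ := by group
      _ = a * b * (d * c) * c⁻¹ * a⁻¹ * d⁻¹ * b⁻¹ := by rw [hcd]
      _ = a * b * (d * a⁻¹) * d⁻¹ * b⁻¹ := by group
      _ = a * b * (a⁻¹ * d) * d⁻¹ * b⁻¹ := by rw [hda]
      _ = a * b * a⁻¹ * b⁻¹ := by group
  rw [hfin]
  exact hL a ha b hb

/-- **Core lemma**: squarefree class sizes and `X'` a `p`-group force `|X'|` to divide `p`. -/
theorem card_commutator_dvd [Finite X] {p : ℕ} (hp : p.Prime)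
    (hsq : ∀ x : X, Squarefree (Subgroup.centralizer ({x} : Set X)).index)
    (hXp : IsPGroup p (commutator X)) : Nat.card (commutator X) ∣ p := by
  haveI : Fact p.Prime := ⟨hp⟩
  obtain ⟨Q, hQ⟩ := hXp.exists_le_sylow
  haveI hQn : (Q : Subgroup X).Normal := normal_of_commutator_le _ hQ
  have hidx : ((Q : Subgroup X).index).Coprime p :=
    ((Nat.Prime.coprime_iff_not_dvd hp).mpr Q.not_dvd_index).symm
  obtain ⟨L, hL, hle⟩ : ∃ L : Subgroup X, Nat.card L ∣ p ∧ commutator X ≤ L := by
    by_cases hab : ∀ a ∈ (Q : Subgroup X), ∀ b ∈ (Q : Subgroup X), a * b = b * a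
    · exact comm_le_of_abelian hp Q Q.isPGroup' hidx hQ hsq hab
    · exact comm_le_of_nonabelian hp Q Q.isPGroup' hidx hQ hsq hab
  exact dvd_trans (Subgroup.card_dvd_of_le hle) hL

end core

/-! ### Assembly -/

section assembly

/-- A finite nilpotent group of squarefree order is cyclic. -/
theorem isCyclic_of_nilpotent_squarefree : ∀ (n : ℕ) (N : Type u) [Group N] [Finite N],
    Nat.card N = n → Group.IsNilpotent N → Squarefree n → IsCyclic N := by
  intro n
  induction n using Nat.strong_induction_on with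
  | _ n ih =>
    intro N _ _ hcard hnil hsq
    by_cases htriv : Subsingleton N
    · exact isCyclic_of_subsingleton
    · haveI : Nontrivial N := not_subsingleton_iff_nontrivial.mp htriv
      haveI := hnil
      have hZ : Subgroup.center N ≠ ⊥ := Group.IsNilpotent.center_ne_bot N
      have hlt : Nat.card (N ⧸ Subgroup.center N) < n := by
        rw [← hcard, ← Subgroup.index_eq_card]
        have h1 := Subgroup.card_mul_index (Subgroup.center N)
        have h2 : 1 < Nat.card (Subgroup.center N) := (Subgroup.one_lt_card_iff_ne_bot _).mpr hZ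
        have h3 : 0 < (Subgroup.center N).index :=
          Nat.pos_of_ne_zero Subgroup.index_ne_zero_of_finite
        nlinarith
      have hsq' : Squarefree (Nat.card (N ⧸ Subgroup.center N)) := by
        apply Squarefree.squarefree_of_dvd _ hsq
        rw [← hcard, ← Subgroup.index_eq_card]
        exact Subgroup.index_dvd_card _
      have hnil' : Group.IsNilpotent (N ⧸ Subgroup.center N) := inferInstance
      haveI := ih _ hlt (N ⧸ Subgroup.center N) rfl hnil' hsq'
      have hcomm : ∀ a b : N, a * b = b * a := fun a b =>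
        ((QuotientGroup.mk' (Subgroup.center N)).isMulCommutative_of_isCyclic_of_ker_le_center
          (by rw [QuotientGroup.ker_mk'])).is_comm.comm a b
      letI : CommGroup N := { (inferInstance : Group N) with mul_comm := hcomm }
      apply IsCyclic.of_exponent_eq_card
      apply Nat.dvd_antisymm Group.exponent_dvd_nat_card
      rw [hcard, ← Nat.prod_primeFactors_of_squarefree hsq]
      apply Finset.prod_primes_dvd
      · intro q hq
        exact (Nat.prime_of_mem_primeFactors hq).prime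
      · intro q hq
        have hqp := Nat.prime_of_mem_primeFactors hq
        have hqd : q ∣ Nat.card N := by
          rw [hcard]; exact Nat.dvd_of_mem_primeFactors hq
        haveI : Fact q.Prime := ⟨hqp⟩
        obtain ⟨x, hx⟩ := exists_prime_orderOf_dvd_card' q hqd
        rw [← hx]
        exact Monoid.order_dvd_exponent x

variable {G : Type u} [Group G] [Finite G]

/-- **P4**: squarefree class sizes in a supersolvable group force `G'` cyclic of squarefree
order. -/
theorem commutator_cyclic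
    (hsq : ∀ x : G, Squarefree (Subgroup.centralizer ({x} : Set G)).index)
    (hss : Cfsg.IsSupersolvable G) :
    IsCyclic (commutator G) ∧ Squarefree (Nat.card (commutator G)) := by
  have hnil : Group.IsNilpotent (commutator G) := Cfsg.Agent.S0526.result hss
  have hsqf : Squarefree (Nat.card (commutator G)) := by
    rw [Nat.squarefree_iff_prime_squarefree]
    intro p hp hpp
    haveI : Fact p.Prime := ⟨hp⟩
    obtain ⟨π, hπ⟩ : ∃ π : G →* G ⧸ pPrimeCore p G, π = QuotientGroup.mk' (pPrimeCore p G) :=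
      ⟨_, rfl⟩
    have hsurj : Function.Surjective π := by
      rw [hπ]; exact QuotientGroup.mk'_surjective _
    have hkerπ : ∀ x : G, π x = 1 → x ∈ pPrimeCore p G := by
      intro x hx
      rw [hπ] at hx
      exact (QuotientGroup.eq_one_iff x).mp hx
    have hsqQ : ∀ x : G ⧸ pPrimeCore p G,
        Squarefree (Subgroup.centralizer ({x} : Set (G ⧸ pPrimeCore p G))).index := by
      intro x
      obtain ⟨y, rfl⟩ := hsurj x
      apply Squarefree.squarefree_of_dvd _ (hsq y)
      have h1 : (Subgroup.centralizer ({y} : Set G)).map π ≤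
          Subgroup.centralizer ({π y} : Set (G ⧸ pPrimeCore p G)) := by
        rintro _ ⟨g, hg, rfl⟩
        have hg' : g ∈ Subgroup.centralizer ({y} : Set G) := hg
        rw [Subgroup.mem_centralizer_iff] at hg' ⊢
        intro z hz
        rw [Set.mem_singleton_iff] at hz
        rw [hz, ← map_mul, ← map_mul, hg' y rfl]
      exact dvd_trans (Subgroup.index_dvd_of_le h1) (Subgroup.index_map_dvd _ hsurj)
    have hcomm : commutator (G ⧸ pPrimeCore p G) = (commutator G).map π := by
      rw [commutator_def, commutator_def, Subgroup.map_commutator,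
        Subgroup.map_top_of_surjective π hsurj]
    haveI hDn : ((commutator G).map π).Normal := Subgroup.Normal.map inferInstance π hsurj
    have hDnil : Group.IsNilpotent ((commutator G).map π) := by
      haveI := hnil
      exact Group.nilpotent_of_surjective (π.subgroupMap (commutator G))
        (π.subgroupMap_surjective (commutator G))
    have hDp : IsPGroup p ((commutator G).map π) :=
      Cfsg.Agent.H60.isPGroup_of_normal_nilpotent
        (Cfsg.Agent.H60.pPrimeCore_quotient_eq_bot p) _ hDnil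
    have hXp : IsPGroup p (commutator (G ⧸ pPrimeCore p G)) := by
      rw [hcomm]; exact hDp
    have hdvd := card_commutator_dvd hp hsqQ hXp
    rw [hcomm] at hdvd
    have hkcop : (Nat.card (π.subgroupMap (commutator G)).ker).Coprime p := by
      rw [Nat.coprime_comm, Nat.Prime.coprime_iff_not_dvd hp]
      intro hd
      obtain ⟨x, hx⟩ := exists_prime_orderOf_dvd_card' p hd
      have hxK : ((x : commutator G) : G) ∈ pPrimeCore p G := by
        apply hkerπ
        have h1 : π.subgroupMap (commutator G) (x : commutator G) = 1 := x.2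
        exact congrArg Subtype.val h1
      have ho : orderOf (⟨((x : commutator G) : G), hxK⟩ : pPrimeCore p G) = p := by
        rw [Subgroup.orderOf_mk, Subgroup.orderOf_coe, Subgroup.orderOf_coe]
        exact hx
      have h2 : p ∣ Nat.card (pPrimeCore p G) := by
        have h3 := orderOf_dvd_natCard (⟨((x : commutator G) : G), hxK⟩ : pPrimeCore p G)
        rw [ho] at h3
        exact h3
      exact (Nat.Prime.coprime_iff_not_dvd hp).mp
        (Cfsg.Agent.H60.card_pPrimeCore_coprime (G := G) p).symm h2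
    have hcard : Nat.card (commutator G) =
        Nat.card (π.subgroupMap (commutator G)).ker * Nat.card ((commutator G).map π) := by
      have h1 := Subgroup.card_mul_index (π.subgroupMap (commutator G)).ker
      rw [Subgroup.index_ker,
        MonoidHom.range_eq_top.mpr (π.subgroupMap_surjective (commutator G)),
        Subgroup.card_top] at h1
      exact h1.symm
    rw [hcard] at hpp
    have hcop2 : (p * p).Coprime (Nat.card (π.subgroupMap (commutator G)).ker) :=
      Nat.coprime_mul_iff_left.mpr ⟨hkcop.symm, hkcop.symm⟩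
    have h2 : p * p ∣ Nat.card ((commutator G).map π) := hcop2.dvd_of_dvd_mul_left hpp
    have h3 : p * p ≤ p :=
      (Nat.le_of_dvd Nat.card_pos h2).trans (Nat.le_of_dvd hp.pos hdvd)
    nlinarith [hp.one_lt]
  exact ⟨isCyclic_of_nilpotent_squarefree _ _ rfl hnil hsqf, hsqf⟩

end assembly

end Cfsg.Agent.H32.Sqf
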